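import Cfsg.Agent.H802.SylIn
import Cfsg.Agent.Lib.GoldschmidtFusion
set_option linter.all false

/-!
# The `L`-lemma (helper789)

`G` finite, `D` a conjugation invariant set of subgroups, `M` a subgroup, `V` a `p`-subgroup of `M`.  Let `L` be of smallest
order among the subgroups with `V ≤ L ≰ M`, `V` normal in `L`, having a Sylow `p`-subgroup `R ≤ M` with
`N_L(⟨D ∩ R⟩) ≤ M`.  Then for every `p`-subgroup `A ∈ D` of `L ∩ M` not contained in `O_p(L)` all proper subgroups of `L`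
containing `A` and `V` lie in `M`; so `L = ⟨A, A^x, V⟩` for `x ∈ L ∖ M`.
-/

set_option autoImplicit false

namespace Cfsg.Agent.H789.LLemma

open Subgroup Cfsg.Agent.H802

variable {G : Type*} [Group G]

/-- The subgroup generated by the members of `D` contained in `R`. -/
def gen (D : Set (Subgroup G)) (R : Subgroup G) : Subgroup G := sSup {A | A ∈ D ∧ A ≤ R}

theorem le_gen {D : Set (Subgroup G)} {R A : Subgroup G} (hA : A ∈ D) (h : A ≤ R) : A ≤ gen D R :=
  le_sSup ⟨hA, h⟩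

theorem gen_le {D : Set (Subgroup G)} {R : Subgroup G} : gen D R ≤ R := sSup_le fun _ h => h.2

/-- Conjugation invariance. -/
def Inv (D : Set (Subgroup G)) : Prop := ∀ A ∈ D, ∀ g : G, A.map (MulAut.conj g).toMonoidHom ∈ D

theorem map_conj_le {g : G} {A B : Subgroup G} :
    A.map (MulAut.conj g).toMonoidHom ≤ B ↔ ∀ a ∈ A, g * a * g⁻¹ ∈ B :=
  ⟨fun h a ha => h ⟨a, ha, rfl⟩, by rintro h _ ⟨a, ha, rfl⟩; exact h a ha⟩

theorem map_conj_mul (g h : G) (A : Subgroup G) :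
    (A.map (MulAut.conj g).toMonoidHom).map (MulAut.conj h).toMonoidHom =
      A.map (MulAut.conj (h * g)).toMonoidHom := by
  rw [Subgroup.map_map]
  congr 1
  ext x
  simp [mul_assoc]

theorem map_conj_one (A : Subgroup G) : A.map (MulAut.conj (1 : G)).toMonoidHom = A := by
  ext x
  simp

theorem gen_conj_le {D : Set (Subgroup G)} (hD : Inv D) {R R' : Subgroup G} {g : G}
    (h : ∀ r ∈ R, g * r * g⁻¹ ∈ R') : ∀ x ∈ gen D R, g * x * g⁻¹ ∈ gen D R' := by
  rw [← map_conj_le, gen, (Subgroup.gc_map_comap _).l_sSup]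
  refine iSup₂_le fun A hA => ?_
  exact le_gen (hD A hA.1 g) (map_conj_le.2 fun a ha => h a (hA.2 ha))

theorem mem_normalizer_gen {D : Set (Subgroup G)} (hD : Inv D) {R : Subgroup G} {g : G}
    (h : g ∈ normalizer (R : Set G)) : g ∈ normalizer (gen D R : Set G) := by
  rw [mem_normalizer_iff] at h ⊢
  intro x
  constructor
  · intro hx
    exact gen_conj_le hD (fun r hr => (h r).1 hr) x hx
  · intro hx
    have h1 : ∀ r ∈ R, g⁻¹ * r * g⁻¹⁻¹ ∈ R := by
      intro r hr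
      rw [h]
      have e : g * (g⁻¹ * r * g⁻¹⁻¹) * g⁻¹ = r := by group
      rwa [e]
    have h2 := gen_conj_le hD h1 _ hx
    have e : g⁻¹ * (g * x * g⁻¹) * g⁻¹⁻¹ = x := by group
    rwa [e] at h2

/-- Admissible subgroups. -/
structure Adm (p : ℕ) (D : Set (Subgroup G)) (M V L : Subgroup G) : Prop where
  VL : V ≤ L
  LM : ¬ L ≤ M
  syl : ∃ R, SylIn p R L ∧ R ≤ M ∧ L ⊓ normalizer (gen D R : Set G) ≤ M

variable {p : ℕ} [Fact p.Prime] [Finite G] {D : Set (Subgroup G)} {M V L A : Subgroup G}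

/-- A `p`-subgroup normalized by `L` lies in every Sylow subgroup of `L`. -/
theorem le_sylIn {R X : Subgroup G} (hR : SylIn p R L) (hX : X ≤ L) (hXp : IsPGroup p X)
    (hn : L ≤ normalizer (X : Set G)) : X ≤ R := by
  have h1 : IsPGroup p (R ⊔ X : Subgroup G) :=
    IsPGroup.to_sup_of_normal_right' hR.isPGroup hXp (hR.le.trans hn)
  have h2 := hR.eq_of_le (sup_le hR.le hX) h1 le_sup_left
  rw [← h2]
  exact le_sup_right

/-- A Sylow subgroup as in the definition containing a given `p`-subgroup of `L ∩ M`. -/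
theorem Adm.exists_above (hD : Inv D) (h : Adm p D M V L) {B : Subgroup G} (hBL : B ≤ L) (hBM : B ≤ M)
    (hBp : IsPGroup p B) :
    ∃ R, B ≤ R ∧ SylIn p R L ∧ R ≤ M ∧ L ⊓ normalizer (gen D R : Set G) ≤ M := by
  obtain ⟨R, hR, hRM, hN⟩ := h.syl
  have hR' : SylIn p R (L ⊓ M) := hR.mono (le_inf hR.le hRM) inf_le_left
  obtain ⟨m, hm, hmB⟩ := hR'.exists_conj (le_inf hBL hBM) hBp
  have hmL : m ∈ L := hm.1
  have hmM : m ∈ M := hm.2
  refine ⟨R.map (MulAut.conj m⁻¹).toMonoidHom, ?_, ?_, ?_, ?_⟩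
  · intro b hb
    refine ⟨_, hmB b hb, ?_⟩
    show m⁻¹ * (m * b * m⁻¹) * m⁻¹⁻¹ = b
    group
  · have h1 := hR.map_conj m⁻¹
    have h2 : L.map (MulAut.conj m⁻¹).toMonoidHom = L := by
      apply le_antisymm
      · rw [map_conj_le]
        exact fun a ha => L.mul_mem (L.mul_mem (L.inv_mem hmL) ha) (L.inv_mem (L.inv_mem hmL))
      · intro a ha
        refine ⟨m * a * m⁻¹, L.mul_mem (L.mul_mem hmL ha) (L.inv_mem hmL), ?_⟩
        show m⁻¹ * (m * a * m⁻¹) * m⁻¹⁻¹ = a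
        group
    rwa [h2] at h1
  · rw [map_conj_le]
    exact fun a ha => M.mul_mem (M.mul_mem (M.inv_mem hmM) (hRM ha)) (M.inv_mem (M.inv_mem hmM))
  · rintro x ⟨hxL, hxN⟩
    have h1 : m * x * m⁻¹ ∈ L ⊓ normalizer (gen D R : Set G) := by
      refine ⟨L.mul_mem (L.mul_mem hmL hxL) (L.inv_mem hmL), ?_⟩
      have hf : ∀ y ∈ gen D R, m⁻¹ * y * m⁻¹⁻¹ ∈ gen D (R.map (MulAut.conj m⁻¹).toMonoidHom) :=
        gen_conj_le hD fun r hr => ⟨r, hr, rfl⟩
      have hb : ∀ y ∈ gen D (R.map (MulAut.conj m⁻¹).toMonoidHom), m * y * m⁻¹ ∈ gen D R := by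
        refine gen_conj_le hD ?_
        rintro _ ⟨r, hr, rfl⟩
        have e : m * (MulAut.conj m⁻¹).toMonoidHom r * m⁻¹ = r := by
          show m * (m⁻¹ * r * m⁻¹⁻¹) * m⁻¹ = r
          group
        rwa [e]
      have key : ∀ z ∈ normalizer (gen D (R.map (MulAut.conj m⁻¹).toMonoidHom) : Set G), ∀ y ∈ gen D R,
          (m * z * m⁻¹) * y * (m * z * m⁻¹)⁻¹ ∈ gen D R := by
        intro z hz y hy
        have h2 := hb _ ((mem_normalizer_iff.1 hz _).1 (hf y hy))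
        have e : m * (z * (m⁻¹ * y * m⁻¹⁻¹) * z⁻¹) * m⁻¹ = (m * z * m⁻¹) * y * (m * z * m⁻¹)⁻¹ := by
          group
        rwa [e] at h2
      refine mem_normalizer_iff.2 fun y => ?_
      refine ⟨key x hxN y, fun hy => ?_⟩
      have h3 := key x⁻¹ (inv_mem hxN) _ hy
      have e : m * x⁻¹ * m⁻¹ * (m * x * m⁻¹ * y * (m * x * m⁻¹)⁻¹) * (m * x⁻¹ * m⁻¹)⁻¹ = y := by group
      rwa [e] at h3
    have h2 := hN h1
    have h3 := M.mul_mem (M.mul_mem (M.inv_mem hmM) h2) hmM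
    have e : m⁻¹ * (m * x * m⁻¹) * m = x := by group
    rwa [e] at h3

/-- **The `L`-lemma.** -/
theorem llemma (hD : Inv D) (hL : Adm p D M V L) (hmin : ∀ L', Adm p D M V L' → Nat.card L ≤ Nat.card L')
    (hVp : IsPGroup p V) (hVM : V ≤ M) (hVn : L ≤ normalizer (V : Set G))
    (hA : A ∈ D) (hAM : A ≤ M) (hAp : IsPGroup p A)
    (hAO : ∀ X : Subgroup G, X ≤ L → IsPGroup p X → L ≤ normalizer (X : Set G) → ¬ A ≤ X)
    {H : Subgroup G} (hAH : A ≤ H) (hVH : V ≤ H) (hHL : H < L) : H ≤ M := by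
  classical
  by_contra hHM
  -- a bad pair with `B` of largest order
  let P : ℕ → Prop := fun n => ∃ B H : Subgroup G, Nat.card B = n ∧ A ≤ B ∧ V ≤ H ∧ H < L ∧ ¬ H ≤ M ∧
    SylIn p B (H ⊓ M)
  have hP0 : ∃ n, P n := by
    obtain ⟨B, hAB, hB⟩ := exists_sylIn (p := p) (le_inf hAH hAM) hAp
    exact ⟨_, B, H, rfl, hAB, hVH, hHL, hHM, hB⟩
  obtain ⟨n₀, hn₀⟩ := hP0
  have hbound : ∀ n, P n → n ≤ Nat.card G := by
    rintro n ⟨B, H, rfl, -⟩
    exact Subgroup.card_le_card_group B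
  have hspec := Nat.findGreatest_spec (P := P) (hbound n₀ hn₀) hn₀
  set n₁ := Nat.findGreatest P (Nat.card G) with hn₁
  obtain ⟨B, H, hBn, hAB, hVH, hHL, hHM, hB⟩ := hspec
  have hmax : ∀ B' H' : Subgroup G, A ≤ B' → V ≤ H' → H' < L → ¬ H' ≤ M → SylIn p B' (H' ⊓ M) →
      Nat.card B' ≤ Nat.card B := by
    intro B' H' h1 h2 h3 h4 h5
    rw [hBn]
    exact Nat.le_findGreatest (Subgroup.card_le_card_group B') ⟨B', H', rfl, h1, h2, h3, h4, h5⟩
  have hBH : B ≤ H := hB.le.trans inf_le_left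
  have hBM : B ≤ M := hB.le.trans inf_le_right
  have hBL : B ≤ L := hBH.trans hHL.le
  have hVB : V ≤ B := le_sylIn hB (le_inf hVH hVM) hVp ((inf_le_left.trans hHL.le).trans hVn)
  obtain ⟨R, hBR, hR, hRM, hN⟩ := hL.exists_above hD hBL hBM hB.isPGroup
  -- `B < R`
  have hBltR : B < R := by
    refine lt_of_le_of_ne hBR ?_
    rintro rfl
    have hadm : Adm p D M V H := ⟨hVH, hHM, B, hR.mono hBH hHL.le, hRM,
      (inf_le_inf_right _ hHL.le).trans hN⟩
    have h1 := hmin H hadm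
    have h2 : Nat.card H < Nat.card L := by
      refine lt_of_le_of_ne (Subgroup.card_le_of_le hHL.le) fun heq => hHL.ne ?_
      exact Subgroup.eq_of_le_of_card_ge hHL.le heq.ge
    omega
  set B₁ := R ⊓ normalizer (B : Set G) with hB₁
  have hBB₁ : B < B₁ := Cfsg.Agent.Lib.GoldschmidtFusion.lt_inf_normalizer hR.isPGroup hBltR
  have hB₁p : IsPGroup p B₁ := hR.isPGroup.to_le inf_le_left
  have hcardB₁ : Nat.card B < Nat.card B₁ := by
    refine lt_of_le_of_ne (Subgroup.card_le_of_le hBB₁.le) fun heq => hBB₁.ne ?_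
    exact Subgroup.eq_of_le_of_card_ge hBB₁.le heq.ge
  -- the general step
  have step : ∀ X : Subgroup G, A ≤ X → X ≤ L → IsPGroup p X → V ≤ normalizer (X : Set G) →
      B₁ ≤ normalizer (X : Set G) → L ⊓ normalizer (X : Set G) ≤ M := by
    intro X hAX hXL hXp hVX hB₁X
    by_contra hcon
    have hlt : L ⊓ normalizer (X : Set G) < L := by
      refine lt_of_le_of_ne inf_le_left fun heq => ?_
      exact hAO X hXL hXp (inf_eq_left.1 heq) hAX
    have hB₁le : B₁ ≤ (L ⊓ normalizer (X : Set G)) ⊓ M :=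
      le_inf (le_inf ((inf_le_left.trans hR.le)) hB₁X) (inf_le_left.trans hRM)
    obtain ⟨B₂, hB₁₂, hB₂⟩ := exists_sylIn (p := p) hB₁le hB₁p
    have h1 := hmax B₂ _ ((hAB.trans hBB₁.le).trans hB₁₂) (le_inf hL.VL hVX) hlt hcon hB₂
    have h2 : Nat.card B₁ ≤ Nat.card B₂ := Subgroup.card_le_of_le hB₁₂
    omega
  have hN₁ : L ⊓ normalizer (B : Set G) ≤ M :=
    step B hAB hBL hB.isPGroup (hVB.trans le_normalizer) inf_le_right
  -- `B` is Sylow in `H`
  have hBsyl : SylIn p B H := by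
    obtain ⟨R₁, hBR₁, hR₁⟩ := exists_sylIn (p := p) hBH hB.isPGroup
    by_cases heq : B = R₁
    · rw [heq]; exact hR₁
    exfalso
    have hlt : B < R₁ := lt_of_le_of_ne hBR₁ heq
    have hlt' := Cfsg.Agent.Lib.GoldschmidtFusion.lt_inf_normalizer hR₁.isPGroup hlt
    have h1 : R₁ ⊓ normalizer (B : Set G) ≤ H ⊓ M := by
      refine le_inf (inf_le_left.trans hR₁.le) ?_
      refine le_trans (le_inf ?_ inf_le_right) hN₁
      exact inf_le_left.trans (hR₁.le.trans hHL.le)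
    have h2 := hB.eq_of_le h1 (hR₁.isPGroup.to_le inf_le_left) hlt'.le
    exact hlt'.ne h2.symm
  have hN₂ : L ⊓ normalizer (gen D B : Set G) ≤ M :=
    step (gen D B) (le_gen hA hAB) (gen_le.trans hBL) (hB.isPGroup.to_le gen_le)
      (fun v hv => mem_normalizer_gen hD (le_normalizer (hVB hv)))
      (fun b hb => mem_normalizer_gen hD hb.2)
  have hadm : Adm p D M V H := ⟨hVH, hHM, B, hBsyl, hBM, (inf_le_inf_right _ hHL.le).trans hN₂⟩
  have h1 := hmin H hadm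
  have h2 : Nat.card H < Nat.card L := by
    refine lt_of_le_of_ne (Subgroup.card_le_of_le hHL.le) fun heq => hHL.ne ?_
    exact Subgroup.eq_of_le_of_card_ge hHL.le heq.ge
  omega

/-- Two conjugates generate. -/
theorem eq_top_of_notMem (hD : Inv D) (hL : Adm p D M V L)
    (hmin : ∀ L', Adm p D M V L' → Nat.card L ≤ Nat.card L')
    (hVp : IsPGroup p V) (hVM : V ≤ M) (hVn : L ≤ normalizer (V : Set G))
    (hA : A ∈ D) (hAL : A ≤ L) (hAM : A ≤ M) (hAp : IsPGroup p A)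
    (hAO : ∀ X : Subgroup G, X ≤ L → IsPGroup p X → L ≤ normalizer (X : Set G) → ¬ A ≤ X)
    {x : G} (hxL : x ∈ L) (hxM : x ∉ M) {E : Subgroup G} (hEL : E ≤ L) (hAE : A ≤ E) (hVE : V ≤ E)
    (hxE : ∀ a ∈ A, x * a * x⁻¹ ∈ E) : E = L := by
  classical
  by_contra hne
  have hlt : E < L := lt_of_le_of_ne hEL hne
  have hEM := llemma hD hL hmin hVp hVM hVn hA hAM hAp hAO hAE hVE hlt
  -- the conjugate of `L ∩ M`
  set A' := A.map (MulAut.conj x).toMonoidHom with hA'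
  have hA'E : A' ≤ E := map_conj_le.2 hxE
  set K := (L ⊓ M).map (MulAut.conj x).toMonoidHom with hK
  have hLM : L ⊓ M < L := lt_of_le_of_ne inf_le_left fun heq => hL.LM (inf_eq_left.1 heq)
  have hKL : K ≤ L := map_conj_le.2 fun a ha =>
    L.mul_mem (L.mul_mem hxL ha.1) (L.inv_mem hxL)
  have hKcard : Nat.card K = Nat.card (L ⊓ M : Subgroup G) := card_map_conj x _
  have hKlt : K < L := by
    refine lt_of_le_of_ne hKL fun heq => ?_
    have h1 : Nat.card (L ⊓ M : Subgroup G) < Nat.card L := by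
      refine lt_of_le_of_ne (Subgroup.card_le_of_le hLM.le) fun heq => hLM.ne ?_
      exact Subgroup.eq_of_le_of_card_ge hLM.le heq.ge
    rw [← hKcard, heq] at h1
    exact lt_irrefl _ h1
  have hVK : V ≤ K := by
    intro v hv
    have h1 : x⁻¹ * v * x⁻¹⁻¹ ∈ V := (mem_normalizer_iff.1 (hVn (L.inv_mem hxL)) v).1 hv
    refine ⟨x⁻¹ * v * x⁻¹⁻¹, ⟨hL.VL h1, hVM h1⟩, ?_⟩
    show x * (x⁻¹ * v * x⁻¹⁻¹) * x⁻¹ = v
    group
  have hA'K : A' ≤ K := Subgroup.map_mono (le_inf hAL hAM)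
  have hKM : K ≤ M := by
    refine llemma hD hL hmin hVp hVM hVn (A := A') (hD A hA x) (hA'E.trans hEM)
      (hAp.map _) ?_ hA'K hVK hKlt
    intro X hXL hXp hXn hA'X
    refine hAO X hXL hXp hXn fun a ha => ?_
    have h1 := hA'X ⟨a, ha, rfl⟩
    exact (mem_normalizer_iff.1 (hXn hxL) a).2 h1
  have hKeq : K = L ⊓ M :=
    Subgroup.eq_of_le_of_card_ge (le_inf hKL hKM) hKcard.ge
  -- `x` normalizes `L ∩ M`
  have hxN : x ∈ normalizer ((L ⊓ M : Subgroup G) : Set G) := by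
    rw [mem_normalizer_iff]
    intro y
    constructor
    · intro hy
      have h1 : x * y * x⁻¹ ∈ K := ⟨y, hy, rfl⟩
      rwa [hKeq] at h1
    · intro hy
      rw [← hKeq] at hy
      obtain ⟨z, hz, hzy⟩ := hy
      have h1 : x * z * x⁻¹ = x * y * x⁻¹ := hzy
      have h2 : z = y := by simpa using h1
      rw [← h2]; exact hz
  have hVLM : V ≤ L ⊓ M := le_inf hL.VL hVM
  obtain ⟨R, hAR, hR, hRM, hN⟩ := hL.exists_above hD hAL hAM hAp
  have hVR : V ≤ R := le_sylIn hR hL.VL hVp hVn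
  have hRLM : SylIn p R (L ⊓ M) := hR.mono (le_inf hR.le hRM) inf_le_left
  -- `x R x⁻¹` is a Sylow subgroup of `L ∩ M`
  have hxR : ∀ r ∈ R, x * r * x⁻¹ ∈ L ⊓ M := fun r hr =>
    (mem_normalizer_iff.1 hxN r).1 (hRLM.le hr)
  obtain ⟨m, hm, hmR⟩ := hRLM.exists_conj (B := R.map (MulAut.conj x).toMonoidHom)
    (map_conj_le.2 hxR) (hR.isPGroup.map _)
  have hmx : m * x ∈ normalizer (R : Set G) := by
    have h1 : R.map (MulAut.conj (m * x)).toMonoidHom ≤ R := by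
      rw [map_conj_le]
      intro r hr
      have h2 := hmR _ ⟨r, hr, rfl⟩
      have e : m * (MulAut.conj x).toMonoidHom r * m⁻¹ = m * x * r * (m * x)⁻¹ := by
        show m * (x * r * x⁻¹) * m⁻¹ = _
        group
      rwa [e] at h2
    have h2 : R.map (MulAut.conj (m * x)).toMonoidHom = R :=
      Subgroup.eq_of_le_of_card_ge h1 (card_map_conj (m * x) R).ge
    rw [mem_normalizer_iff]
    intro y
    constructor
    · intro hy
      exact h1 ⟨y, hy, rfl⟩
    · intro hy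
      rw [← h2] at hy
      obtain ⟨z, hz, hzy⟩ := hy
      have h3 : (m * x) * z * (m * x)⁻¹ = (m * x) * y * (m * x)⁻¹ := hzy
      have h4 : z = y := by simpa using h3
      rw [← h4]; exact hz
  have hNR : L ⊓ normalizer (R : Set G) ≤ M := by
    refine llemma hD hL hmin hVp hVM hVn hA hAM hAp hAO (le_inf hAL (hAR.trans le_normalizer))
      (le_inf hL.VL (hVR.trans le_normalizer)) (lt_of_le_of_ne inf_le_left fun heq => ?_)
    exact hAO R hR.le hR.isPGroup (inf_eq_left.1 heq) hAR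
  have h5 : m * x ∈ M := hNR ⟨L.mul_mem hm.1 hxL, hmx⟩
  have h6 := M.mul_mem (M.inv_mem hm.2) h5
  rw [inv_mul_cancel_left] at h6
  exact hxM h6

/-- Existence of a suitable member of `D`. -/
theorem exists_mem (hD : Inv D) {R : Subgroup G} (hR : SylIn p R L) (hLM : ¬ L ≤ M)
    (hN : L ⊓ normalizer (gen D R : Set G) ≤ M) :
    ∃ A ∈ D, A ≤ R ∧
      ∀ X : Subgroup G, X ≤ L → IsPGroup p X → L ≤ normalizer (X : Set G) → ¬ A ≤ X := by
  by_contra hcon
  push Not at hcon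
  apply hLM
  refine le_trans (le_inf le_rfl ?_) hN
  have key : ∀ l ∈ L, ∀ y ∈ gen D R, l * y * l⁻¹ ∈ gen D R := by
    intro l hl
    rw [← map_conj_le]
    rw [gen, (Subgroup.gc_map_comap _).l_sSup]
    refine iSup₂_le fun A hA => ?_
    obtain ⟨X, hXL, hXp, hXn, hAX⟩ := hcon A hA.1 hA.2
    have hXR := le_sylIn hR hXL hXp hXn
    refine le_gen (hD A hA.1 l) (map_conj_le.2 fun a ha => hXR ?_)
    exact (mem_normalizer_iff.1 (hXn hl) a).1 (hAX ha)
  intro l hl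
  rw [mem_normalizer_iff]
  intro y
  refine ⟨key l hl y, fun hy => ?_⟩
  have h1 := key l⁻¹ (L.inv_mem hl) _ hy
  have e : l⁻¹ * (l * y * l⁻¹) * l⁻¹⁻¹ = y := by group
  rwa [e] at h1

end Cfsg.Agent.H789.LLemma
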