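import Cfsg.Agent.PLocal.ThompsonReplacement
import Cfsg.Agent.H789.LLemma
import Cfsg.Agent.PLocal.ThompsonJA
set_option linter.all false

-- part: H789/QuadReplace
section
/-!
# Thompson replacement for abelian subgroups of largest order (helper789)
-/

set_option autoImplicit false

namespace Cfsg.Agent.H789.QuadReplace

open Subgroup
open scoped commutatorElement
open Cfsg.Agent.PLocal.ThompsonReplacement

variable {G : Type*} [Group G] [Finite G]

/-- `A` abelian of largest order in `A V`, `V` abelian normalized by `A`, `[V, A] ≠ 1`: some `B ≤ A V` abelian of the same order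
acts nontrivially and quadratically on `V`. -/
theorem exists_quadratic {p : ℕ} [Fact p.Prime] {V A : Subgroup G} (hVp : IsPGroup p V)
    (hAp : IsPGroup p A) (hV : ∀ x ∈ V, ∀ y ∈ V, x * y = y * x) (hA : ∀ x ∈ A, ∀ y ∈ A, x * y = y * x)
    (hmax : ∀ B : Subgroup G, IsPGroup p B → (∀ x ∈ B, ∀ y ∈ B, x * y = y * x) →
      Nat.card B ≤ Nat.card A)
    (hAV : A ≤ normalizer (V : Set G)) (hne : ∃ a ∈ A, ∃ v ∈ V, a * v ≠ v * a) :
    ∃ B : Subgroup G, B ≤ A ⊔ V ∧ (∀ x ∈ B, ∀ y ∈ B, x * y = y * x) ∧ Nat.card B = Nat.card A ∧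
      (∃ b ∈ B, ∃ v ∈ V, b * v ≠ v * b) ∧
      ∀ b ∈ B, ∀ c ∈ B, ∀ v ∈ V, c * ⁅v, b⁆ = ⁅v, b⁆ * c := by
  classical
  have hPp : IsPGroup p (A ⊔ V : Subgroup G) := IsPGroup.to_sup_of_normal_right' hAp hVp hAV
  have hPV : A ⊔ V ≤ normalizer (V : Set G) := sup_le hAV le_normalizer
  let P : ℕ → Prop := fun n => ∃ B : Subgroup G, Nat.card (B ⊓ V : Subgroup G) = n ∧ B ≤ A ⊔ V ∧
    (∀ x ∈ B, ∀ y ∈ B, x * y = y * x) ∧ Nat.card B = Nat.card A ∧ (∃ b ∈ B, ∃ v ∈ V, b * v ≠ v * b)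
  have hP : P (Nat.card (A ⊓ V : Subgroup G)) := ⟨A, rfl, le_sup_left, hA, rfl, hne⟩
  have hbound : ∀ n, P n → n ≤ Nat.card G := by
    rintro n ⟨B, rfl, -⟩
    exact Subgroup.card_le_card_group _
  have hspec := Nat.findGreatest_spec (P := P) (hbound _ hP) hP
  set n₁ := Nat.findGreatest P (Nat.card G)
  obtain ⟨B, hBn, hBle, hB, hBc, hBne⟩ := hspec
  refine ⟨B, hBle, hB, hBc, hBne, ?_⟩
  by_contra hcon
  push Not at hcon
  obtain ⟨b, hb, c, hc, v, hv, hbc⟩ := hcon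
  have hBV : ∀ a ∈ B, ∀ x ∈ V, a * x * a⁻¹ ∈ V := fun a ha x hx =>
    (mem_normalizer_iff.1 (hPV (hBle ha)) x).1 hx
  set M := elemComm v B with hM
  have hMV : M ≤ V := elemComm_le hBV hv
  set B' := (B ⊓ centralizer (M : Set G)) ⊔ M with hB'
  have hcard : Nat.card B ≤ Nat.card B' := card_le_card_replacement hV hB hBV hv
  have hB'comm : ∀ x ∈ B', ∀ y ∈ B', x * y = y * x := by
    intro x hx y hy
    obtain ⟨b₁, hb₁, m₁, hm₁, rfl⟩ := exists_mul_of_mem_sup inf_le_right hx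
    obtain ⟨b₂, hb₂, m₂, hm₂, rfl⟩ := exists_mul_of_mem_sup inf_le_right hy
    have e1 : b₁ * b₂ = b₂ * b₁ := hB _ hb₁.1 _ hb₂.1
    have e2 : m₁ * m₂ = m₂ * m₁ := hV _ (hMV hm₁) _ (hMV hm₂)
    have e3 : m₁ * b₂ = b₂ * m₁ := (mem_centralizer_iff.1 hb₂.2) m₁ hm₁
    have e4 : m₂ * b₁ = b₁ * m₂ := (mem_centralizer_iff.1 hb₁.2) m₂ hm₂
    calc b₁ * m₁ * (b₂ * m₂) = b₁ * (m₁ * b₂) * m₂ := by group
      _ = (b₁ * b₂) * (m₁ * m₂) := by rw [e3]; group
      _ = (b₂ * b₁) * (m₂ * m₁) := by rw [e1, e2]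
      _ = b₂ * (b₁ * m₂) * m₁ := by group
      _ = b₂ * m₂ * (b₁ * m₁) := by rw [← e4]; group
  have hB'le : B' ≤ A ⊔ V := sup_le (inf_le_left.trans hBle) (hMV.trans le_sup_right)
  have hB'p : IsPGroup p B' := hPp.to_le hB'le
  have hB'card : Nat.card B' = Nat.card A :=
    le_antisymm (hmax B' hB'p hB'comm) (hBc ▸ hcard)
  have hbM : ⁅v, b⁆ ∈ M := mem_elemComm v B hb
  -- `B ⊓ V < B' ⊓ V`
  have hlt : Nat.card (B ⊓ V : Subgroup G) < Nat.card (B' ⊓ V : Subgroup G) := by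
    have hle : B ⊓ V ≤ B' ⊓ V := by
      refine le_inf (fun x hx => ?_) inf_le_right
      exact Subgroup.mem_sup_left ⟨hx.1, mem_centralizer_iff.2 fun m hm => hV _ (hMV hm) _ hx.2⟩
    refine lt_of_le_of_ne (Subgroup.card_le_of_le hle) fun heq => ?_
    have h1 := Subgroup.eq_of_le_of_card_ge hle heq.ge
    have h2 : ⁅v, b⁆ ∈ B' ⊓ V := ⟨Subgroup.mem_sup_right hbM, hMV hbM⟩
    rw [← h1] at h2
    exact hbc (hB _ hc _ h2.1)
  -- `B'` centralizes `V`
  have hB'V : ∀ x ∈ B', ∀ w ∈ V, x * w = w * x := by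
    by_contra hcon
    push Not at hcon
    obtain ⟨x, hx, w, hw, hxw⟩ := hcon
    have h1 : Nat.card (B' ⊓ V : Subgroup G) ≤ n₁ :=
      Nat.le_findGreatest (Subgroup.card_le_card_group _) ⟨B', rfl, hB'le, hB'comm, hB'card, x, hx, w, hw, hxw⟩
    omega
  -- `V ≤ B'`
  have hVB' : V ≤ B' := by
    have hcomm : ∀ x ∈ B' ⊔ V, ∀ y ∈ B' ⊔ V, x * y = y * x := by
      have hcen : B' ≤ centralizer (V : Set G) := fun x hx =>
        mem_centralizer_iff.2 fun w hw => (hB'V x hx w hw).symm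
      intro x hx y hy
      obtain ⟨b₁, hb₁, m₁, hm₁, rfl⟩ := exists_mul_of_mem_sup hcen hx
      obtain ⟨b₂, hb₂, m₂, hm₂, rfl⟩ := exists_mul_of_mem_sup hcen hy
      have e1 : b₁ * b₂ = b₂ * b₁ := hB'comm _ hb₁ _ hb₂
      have e2 : m₁ * m₂ = m₂ * m₁ := hV _ hm₁ _ hm₂
      have e3 : m₁ * b₂ = b₂ * m₁ := (hB'V _ hb₂ _ hm₁).symm
      have e4 : m₂ * b₁ = b₁ * m₂ := (hB'V _ hb₁ _ hm₂).symm
      calc b₁ * m₁ * (b₂ * m₂) = b₁ * (m₁ * b₂) * m₂ := by group
        _ = (b₁ * b₂) * (m₁ * m₂) := by rw [e3]; group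
        _ = (b₂ * b₁) * (m₂ * m₁) := by rw [e1, e2]
        _ = b₂ * (b₁ * m₂) * m₁ := by group
        _ = b₂ * m₂ * (b₁ * m₁) := by rw [← e4]; group
    have h1 := hmax (B' ⊔ V) (hPp.to_le (sup_le hB'le le_sup_right)) hcomm
    have h2 : B' = B' ⊔ V := Subgroup.eq_of_le_of_card_ge le_sup_left (by rw [hB'card]; exact h1)
    rw [h2]
    exact le_sup_right
  -- `[V, B] ≤ [M, B]`
  have hMle : M ≤ ⁅M, A ⊔ V⁆ := by
    rw [hM, elemComm_le_iff]
    intro a ha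
    obtain ⟨b₁, hb₁, m₁, hm₁, hv'⟩ := exists_mul_of_mem_sup inf_le_right (hVB' hv)
    have hm₁V := hMV hm₁
    have hb₁V : b₁ ∈ V := by
      have : b₁ = v * m₁⁻¹ := by rw [← hv']; group
      rw [this]; exact V.mul_mem hv (V.inv_mem hm₁V)
    have e1 : b₁ * a = a * b₁ := hB _ hb₁.1 _ ha
    have hk : ⁅m₁, a⁆ ∈ V := by
      rw [commutatorElement_def]
      have : m₁ * a * m₁⁻¹ * a⁻¹ = m₁ * (a * m₁⁻¹ * a⁻¹) := by group
      rw [this]
      exact V.mul_mem hm₁V (hBV a ha _ (V.inv_mem hm₁V))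
    have e2 : ⁅v, a⁆ = ⁅m₁, a⁆ := by
      rw [← hv']
      have e3 : ⁅b₁ * m₁, a⁆ = b₁ * ⁅m₁, a⁆ * (a * b₁⁻¹ * a⁻¹) := by
        rw [commutatorElement_def, commutatorElement_def]
        group
      have e4 : a * b₁⁻¹ * a⁻¹ = b₁⁻¹ := by
        have : a * b₁⁻¹ = b₁⁻¹ * a := by
          have h5 := congrArg (fun z => b₁⁻¹ * z * b₁⁻¹) e1
          simp only [mul_assoc, inv_mul_cancel_left, mul_inv_cancel, mul_one] at h5
          exact h5
        rw [this, mul_inv_cancel_right]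
      rw [e3, e4, hV b₁ hb₁V _ hk, mul_inv_cancel_right]
    rw [e2]
    exact commutator_mem_commutator hm₁ (hBle ha)
  have hM0 : M = ⊥ := eq_bot_of_le_commutator hPp.isNilpotent (hMV.trans le_sup_right) hMle
  rw [hM0, Subgroup.mem_bot] at hbM
  rw [hbM] at hbc
  simp at hbc

end Cfsg.Agent.H789.QuadReplace
end

-- part: H789/LocalData
section
/-!
# Local data around a central subgroup `T` of a Sylow subgroup whose normalizer contains `N(J(S))` (helper789)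
-/

set_option autoImplicit false

namespace Cfsg.Agent.H789.LocalData

open Subgroup Cfsg Cfsg.Agent.H802 Cfsg.Agent.H789.LLemma
open Cfsg.Agent.PLocal
open scoped commutatorElement

variable {G : Type*} [Group G] {p : ℕ}

/-- The abelian `p`-subgroups of largest order. -/
def DD (G : Type*) [Group G] (p : ℕ) : Set (Subgroup G) :=
  {A | IsPGroup p A ∧ (∀ x ∈ A, ∀ y ∈ A, x * y = y * x) ∧
    ∀ B : Subgroup G, IsPGroup p B → (∀ x ∈ B, ∀ y ∈ B, x * y = y * x) → Nat.card B ≤ Nat.card A}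

theorem inv_DD : LLemma.Inv (DD G p) := by
  rintro A ⟨h1, h2, h3⟩ g
  refine ⟨h1.map _, ?_, fun B hB hBc => ?_⟩
  · rintro _ ⟨x, hx, rfl⟩ _ ⟨y, hy, rfl⟩
    rw [← map_mul, h2 x hx y hy, map_mul]
  · rw [card_map_conj]
    exact h3 B hB hBc

theorem gen_DD [Finite G] [Fact p.Prime] {S : Subgroup G} (hS : SylIn p S ⊤) :
    gen (DD G p) S = thompsonSubgroupAOf S := by
  rw [ThompsonJA.thompsonSubgroupAOf_eq_sSup]
  unfold gen
  congr 1
  ext A
  constructor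
  · rintro ⟨⟨h1, h2, h3⟩, h4⟩
    refine ⟨h4, (ThompsonJA.isMulCommutative_iff A).2 h2, fun B hB hBc => ?_⟩
    exact h3 B (hS.isPGroup.to_le hB) ((ThompsonJA.isMulCommutative_iff B).1 hBc)
  · rintro ⟨h1, h2, h3⟩
    refine ⟨⟨hS.isPGroup.to_le h1, (ThompsonJA.isMulCommutative_iff A).1 h2, fun B hB hBc => ?_⟩, h1⟩
    obtain ⟨k, -, hk⟩ := hS.exists_conj (le_top : B ≤ ⊤) hB
    rw [← card_map_conj k B]
    refine h3 _ (map_conj_le.2 hk) ((ThompsonJA.isMulCommutative_iff _).2 ?_)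
    rintro _ ⟨x, hx, rfl⟩ _ ⟨y, hy, rfl⟩
    rw [← map_mul, hBc x hx y hy, map_mul]

/-- The subgroup generated by the `L`-conjugates of `T`. -/
def nc (L T : Subgroup G) : Subgroup G := closure {z | ∃ l ∈ L, ∃ t ∈ T, z = l * t * l⁻¹}

theorem conj_mem_nc {L T : Subgroup G} {l t : G} (hl : l ∈ L) (ht : t ∈ T) : l * t * l⁻¹ ∈ nc L T :=
  subset_closure ⟨l, hl, t, ht, rfl⟩

theorem le_nc {L T : Subgroup G} : T ≤ nc L T := fun t ht => by
  have := conj_mem_nc (L := L) (one_mem L) ht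
  simpa using this

theorem nc_le {L T X : Subgroup G} (h : ∀ l ∈ L, ∀ t ∈ T, l * t * l⁻¹ ∈ X) : nc L T ≤ X := by
  rw [nc, closure_le]
  rintro _ ⟨l, hl, t, ht, rfl⟩
  exact h l hl t ht

theorem nc_le_of_normalizes {L T X : Subgroup G} (hTX : T ≤ X) (hX : L ≤ normalizer (X : Set G)) :
    nc L T ≤ X :=
  nc_le fun _ hl t ht => (mem_normalizer_iff.1 (hX hl) t).1 (hTX ht)

theorem le_normalizer_nc {L T : Subgroup G} : L ≤ normalizer (nc L T : Set G) := by
  have key : ∀ l ∈ L, ∀ z ∈ nc L T, l * z * l⁻¹ ∈ nc L T := by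
    intro l hl
    rw [← map_conj_le, nc, MonoidHom.map_closure, closure_le]
    rintro _ ⟨_, ⟨m, hm, t, ht, rfl⟩, rfl⟩
    refine subset_closure ⟨l * m, L.mul_mem hl hm, t, ht, ?_⟩
    show l * (m * t * m⁻¹) * l⁻¹ = _
    group
  intro l hl
  rw [mem_normalizer_iff]
  intro z
  refine ⟨key l hl z, fun hz => ?_⟩
  have h1 := key l⁻¹ (L.inv_mem hl) _ hz
  have e : l⁻¹ * (l * z * l⁻¹) * l⁻¹⁻¹ = z := by group
  rwa [e] at h1

/-- The local data. -/
structure Loc (p : ℕ) (T L B V : Subgroup G) : Prop where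
  Vp : IsPGroup p V
  Vc : ∀ x ∈ V, ∀ y ∈ V, x * y = y * x
  VL : V ≤ L
  LV : L ≤ normalizer (V : Set G)
  TV : T ≤ V
  LM : ¬ L ≤ normalizer (T : Set G)
  Bp : IsPGroup p B
  BL : B ≤ L
  BT : B ≤ centralizer (T : Set G)
  gen : ∀ x ∈ L, x ∉ normalizer (T : Set G) → ∀ E : Subgroup G, E ≤ L → B ≤ E → V ≤ E →
    (∀ a ∈ B, x * a * x⁻¹ ∈ E) → E = L
  quad : ∀ b ∈ B, ∀ c ∈ B, ∀ v ∈ nc L T, c * ⁅v, b⁆ = ⁅v, b⁆ * c
  core : ∀ b ∈ B, (∀ x ∈ L, x⁻¹ * b * x ∈ normalizer (T : Set G)) → b ∈ centralizer (nc L T : Set G)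
  card : (centralizer (B : Set G)).relIndex (nc L T) ≤ (centralizer (nc L T : Set G)).relIndex B

variable [Finite G] [Fact p.Prime]

/-- Frattini argument inside `L`. -/
theorem frattini {L K R M : Subgroup G} (hR : SylIn p R L) (hKL : K ≤ L)
    (hK : ∀ k ∈ L, ∀ m ∈ K, k * m * k⁻¹ ∈ K) (hKM : K ≤ M)
    (hN : L ⊓ normalizer ((R ⊓ K : Subgroup G) : Set G) ≤ M) : L ≤ M := by
  have hRK := hR.inf_normal hKL hK
  intro l hl
  obtain ⟨k, hk, hkR⟩ := hRK.exists_conj (B := (R ⊓ K).map (MulAut.conj l).toMonoidHom)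
    (map_conj_le.2 fun r hr => hK l hl r hr.2) (hRK.isPGroup.map _)
  have hkl : k * l ∈ normalizer ((R ⊓ K : Subgroup G) : Set G) := by
    have h1 : (R ⊓ K).map (MulAut.conj (k * l)).toMonoidHom ≤ R ⊓ K := by
      rw [map_conj_le]
      intro r hr
      have h2 := hkR _ ⟨r, hr, rfl⟩
      have e : k * (MulAut.conj l).toMonoidHom r * k⁻¹ = k * l * r * (k * l)⁻¹ := by
        show k * (l * r * l⁻¹) * k⁻¹ = _
        group
      rwa [e] at h2
    have h2 : (R ⊓ K).map (MulAut.conj (k * l)).toMonoidHom = R ⊓ K :=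
      Subgroup.eq_of_le_of_card_ge h1 (card_map_conj (k * l) _).ge
    rw [mem_normalizer_iff]
    intro y
    constructor
    · intro hy
      exact h1 ⟨y, hy, rfl⟩
    · intro hy
      rw [← h2] at hy
      obtain ⟨z, hz, hzy⟩ := hy
      have h3 : (k * l) * z * (k * l)⁻¹ = (k * l) * y * (k * l)⁻¹ := hzy
      have h4 : z = y := by simpa using h3
      rw [← h4]; exact hz
  have h1 : k * l ∈ M := hN ⟨L.mul_mem (hKL hk) hl, hkl⟩
  have h2 := M.mul_mem (M.inv_mem (hKM hk)) h1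
  rwa [inv_mul_cancel_left] at h2

theorem exists_loc {S T Q : Subgroup G} (hS : SylIn p S ⊤)
    (hTc : S ≤ centralizer (T : Set G)) (hQn : Q.Normal) (hQp : IsPGroup p Q) (hTQ : T ≤ Q)
    (hJ : normalizer (thompsonSubgroupAOf S : Set G) ≤ normalizer (T : Set G))
    (hT : normalizer (T : Set G) ≠ ⊤) :
    ∃ L B V : Subgroup G, Loc p T L B V := by
  classical
  set M := normalizer (T : Set G) with hM
  have hQS : Q ≤ S := le_sylIn hS le_top hQp (fun g _ => by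
    rw [normalizer_eq_top]; trivial)
  -- `V`, the normal closure of `T`
  set V := nc (⊤ : Subgroup G) T with hVdef
  have hVQ : V ≤ Q := nc_le fun l _ t ht => hQn.conj_mem t (hTQ ht) l
  have hVp : IsPGroup p V := hQp.to_le hVQ
  have hVcQ : V ≤ centralizer (Q : Set G) := by
    refine nc_le fun l _ t ht => ?_
    rw [mem_centralizer_iff]
    intro q hq
    have h1 : l⁻¹ * q * l⁻¹⁻¹ ∈ Q := hQn.conj_mem q hq l⁻¹
    have h2 : t * (l⁻¹ * q * l⁻¹⁻¹) = (l⁻¹ * q * l⁻¹⁻¹) * t := (mem_centralizer_iff.1 (hTc (hQS h1))) t ht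
    have h3 := congrArg (fun z => l * z * l⁻¹) h2
    have e1 : l * (t * (l⁻¹ * q * l⁻¹⁻¹)) * l⁻¹ = (l * t * l⁻¹) * q := by group
    have e2 : l * ((l⁻¹ * q * l⁻¹⁻¹) * t) * l⁻¹ = q * (l * t * l⁻¹) := by group
    rw [e1, e2] at h3
    exact h3.symm
  have hVc : ∀ x ∈ V, ∀ y ∈ V, x * y = y * x := fun x hx y hy =>
    ((mem_centralizer_iff.1 (hVcQ hx)) y (hVQ hy)).symm
  have hTV : T ≤ V := le_nc
  have hVM : V ≤ M := fun v hv => by
    rw [hM, mem_normalizer_iff]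
    intro t
    constructor
    · intro ht
      rw [hVc v hv t (hTV ht), mul_inv_cancel_right]; exact ht
    · intro ht
      have h1 := hVc v hv _ (hTV ht)
      have e : t = v * t * v⁻¹ := by
        have h2 := congrArg (fun z => v⁻¹ * z) h1
        simp only [inv_mul_cancel_left] at h2
        have e2 : v⁻¹ * (v * t * v⁻¹ * v) = t := by group
        rw [e2] at h2
        exact h2.symm
      rw [e]; exact ht
  have hVn : ∀ L : Subgroup G, L ≤ normalizer (V : Set G) := fun L =>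
    le_trans le_top le_normalizer_nc
  -- `p`-subgroups of `M` centralize `T`
  have hSM : SylIn p S M := hS.mono (hTc.trans (fun c hc => by
    rw [hM, mem_normalizer_iff]
    intro t
    have key : ∀ d ∈ centralizer (T : Set G), ∀ t ∈ T, d * t * d⁻¹ ∈ T := fun d hd t ht => by
      rw [← (mem_centralizer_iff.1 hd) t ht, mul_inv_cancel_right]; exact ht
    refine ⟨key c hc t, fun ht => ?_⟩
    have h1 := key c⁻¹ (inv_mem hc) _ ht
    have e : c⁻¹ * (c * t * c⁻¹) * c⁻¹⁻¹ = t := by group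
    rwa [e] at h1)) le_top
  have hpM : ∀ X : Subgroup G, X ≤ M → IsPGroup p X → X ≤ centralizer (T : Set G) := by
    intro X hX hXp
    obtain ⟨m, hm, hmX⟩ := hSM.exists_conj hX hXp
    intro x hx
    rw [mem_centralizer_iff]
    intro t ht
    have h1 : m * t * m⁻¹ ∈ T := (mem_normalizer_iff.1 hm t).1 ht
    have h2 := (mem_centralizer_iff.1 (hTc (hmX x hx))) _ h1
    have h3 := congrArg (fun z => m⁻¹ * z * m) h2
    have e1 : m⁻¹ * (m * t * m⁻¹ * (m * x * m⁻¹)) * m = t * x := by group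
    have e2 : m⁻¹ * (m * x * m⁻¹ * (m * t * m⁻¹)) * m = x * t := by group
    rwa [e1, e2] at h3
  -- the minimal admissible subgroup
  have hadm : Adm p (DD G p) M V (⊤ : Subgroup G) := by
    refine ⟨le_top, fun h => hT (eq_top_iff.2 h), S, hS, hSM.le, ?_⟩
    rw [top_inf_eq, gen_DD hS]
    exact hJ
  obtain ⟨L, hL, hmin⟩ : ∃ L, Adm p (DD G p) M V L ∧
      ∀ L', Adm p (DD G p) M V L' → Nat.card L ≤ Nat.card L' := by
    let P : ℕ → Prop := fun n => ∃ L : Subgroup G, Nat.card L = n ∧ Adm p (DD G p) M V L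
    have hP : ∃ n, P n := ⟨_, ⊤, rfl, hadm⟩
    obtain ⟨L, hLn, hL⟩ := Nat.find_spec hP
    refine ⟨L, hL, fun L' hL' => ?_⟩
    rw [hLn]
    exact Nat.find_min' hP ⟨L', rfl, hL'⟩
  obtain ⟨R, hR, hRM, hN⟩ := hL.syl
  obtain ⟨A, hAD, hAR, hAO⟩ := exists_mem inv_DD hR hL.LM hN
  have hRc : R ≤ centralizer (T : Set G) := hpM R hRM hR.isPGroup
  set V₁ := nc L T with hV₁
  have hV₁V : V₁ ≤ V := nc_le_of_normalizes hTV (hVn L)
  have hV₁n : L ≤ normalizer (V₁ : Set G) := le_normalizer_nc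
  have hVR : V ≤ R := le_sylIn hR hL.VL hVp (hVn L)
  -- normal `p`-subgroups of `L` centralize `V₁`
  have hOc : ∀ X : Subgroup G, X ≤ L → IsPGroup p X → L ≤ normalizer (X : Set G) →
      ∀ x ∈ X, ∀ v ∈ V₁, x * v = v * x := by
    intro X hXL hXp hXn
    have hXR := le_sylIn hR hXL hXp hXn
    have h1 : V₁ ≤ centralizer (X : Set G) := by
      refine nc_le fun l hl t ht => ?_
      rw [mem_centralizer_iff]
      intro x hx
      have h2 : l⁻¹ * x * l⁻¹⁻¹ ∈ X := (mem_normalizer_iff.1 (hXn (L.inv_mem hl)) x).1 hx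
      have h3 : t * (l⁻¹ * x * l⁻¹⁻¹) = (l⁻¹ * x * l⁻¹⁻¹) * t :=
        (mem_centralizer_iff.1 (hRc (hXR h2))) t ht
      have h4 := congrArg (fun z => l * z * l⁻¹) h3
      have e1 : l * (t * (l⁻¹ * x * l⁻¹⁻¹)) * l⁻¹ = (l * t * l⁻¹) * x := by group
      have e2 : l * ((l⁻¹ * x * l⁻¹⁻¹) * t) * l⁻¹ = x * (l * t * l⁻¹) := by group
      rw [e1, e2] at h4
      exact h4.symm
    intro x hx v hv
    exact (mem_centralizer_iff.1 (h1 hv)) x hx
  -- any suitable member of `DD` contained in `R` acts nontrivially on `V₁`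
  have hgenlt : ∀ B : Subgroup G, B ∈ DD G p → B ≤ R →
      (∀ X : Subgroup G, X ≤ L → IsPGroup p X → L ≤ normalizer (X : Set G) → ¬ B ≤ X) →
      ∀ E : Subgroup G, B ≤ E → V ≤ E → E < L → E ≤ M := fun B hB hBR hBO E hBE hVE hE =>
    llemma inv_DD hL hmin hVp hVM (hVn L) hB (hBR.trans hRM) hB.1 hBO hBE hVE hE
  have hnontriv : ∃ a ∈ A, ∃ v ∈ V₁, a * v ≠ v * a := by
    by_contra hcon
    push Not at hcon
    set K := L ⊓ centralizer (V₁ : Set G) with hK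
    have hKn : ∀ k ∈ L, ∀ m ∈ K, k * m * k⁻¹ ∈ K := by
      rintro k hk m ⟨hm, hmc⟩
      refine ⟨L.mul_mem (L.mul_mem hk hm) (L.inv_mem hk), mem_centralizer_iff.2 fun v hv => ?_⟩
      have h1 : k⁻¹ * v * k⁻¹⁻¹ ∈ V₁ := (mem_normalizer_iff.1 (hV₁n (L.inv_mem hk)) v).1 hv
      have h2 := (mem_centralizer_iff.1 hmc) _ h1
      have h3 := congrArg (fun z => k * z * k⁻¹) h2
      have e1 : k * (k⁻¹ * v * k⁻¹⁻¹ * m) * k⁻¹ = v * (k * m * k⁻¹) := by group
      have e2 : k * (m * (k⁻¹ * v * k⁻¹⁻¹)) * k⁻¹ = k * m * k⁻¹ * v := by group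
      rwa [e1, e2] at h3
    have hKM : K ≤ M := by
      rintro k ⟨-, hkc⟩
      have hkT : ∀ t ∈ T, t * k = k * t := fun t ht => (mem_centralizer_iff.1 hkc) t (le_nc ht)
      rw [hM, mem_normalizer_iff]
      intro t
      constructor
      · intro ht
        rw [← hkT t ht, mul_inv_cancel_right]; exact ht
      · intro ht
        have h1 := hkT _ ht
        have e : t = k * t * k⁻¹ := by
          have h2 := congrArg (fun z => k⁻¹ * z) h1
          simp only [inv_mul_cancel_left] at h2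
          rw [← h2]
          group
        rw [e]; exact ht
    have hAK : A ≤ R ⊓ K := le_inf hAR (le_inf (hAR.trans hR.le) fun a ha =>
      mem_centralizer_iff.2 fun v hv => (hcon a ha v hv).symm)
    have hVK : V ≤ R ⊓ K := le_inf hVR (le_inf hL.VL fun a ha =>
      mem_centralizer_iff.2 fun v hv => (hVc a ha v (hV₁V hv)).symm)
    apply hL.LM
    refine frattini hR inf_le_left hKn hKM ?_
    refine hgenlt A hAD hAR hAO _ (le_inf (hAR.trans hR.le) (hAK.trans le_normalizer))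
      (le_inf hL.VL (hVK.trans le_normalizer)) (lt_of_le_of_ne inf_le_left fun heq => ?_)
    exact hAO (R ⊓ K) (inf_le_left.trans hR.le) (hR.isPGroup.to_le inf_le_left) (inf_eq_left.1 heq) hAK
  obtain ⟨B, hBle, hBc, hBcard, ⟨b₀, hb₀, v₀, hv₀, hbv⟩, hBq⟩ := QuadReplace.exists_quadratic
    (hVp.to_le hV₁V) hAD.1 (fun x hx y hy => hVc x (hV₁V hx) y (hV₁V hy)) hAD.2.1 hAD.2.2
    ((hAR.trans hR.le).trans hV₁n) hnontriv
  have hBR : B ≤ R := hBle.trans (sup_le hAR (hV₁V.trans hVR))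
  have hBD : B ∈ DD G p := ⟨hR.isPGroup.to_le hBR, hBc, fun C hC hCc => by
    rw [hBcard]; exact hAD.2.2 C hC hCc⟩
  have hBO : ∀ X : Subgroup G, X ≤ L → IsPGroup p X → L ≤ normalizer (X : Set G) → ¬ B ≤ X :=
    fun X hXL hXp hXn hBX => hbv (hOc X hXL hXp hXn b₀ (hBX hb₀) v₀ hv₀)
  refine ⟨L, B, V, hVp, hVc, hL.VL, hVn L, hTV, hL.LM, hBD.1, hBR.trans hR.le, hBR.trans hRc, ?_,
    hBq, ?_, ?_⟩
  · intro x hxL hxM E hEL hBE hVE hxE
    exact eq_top_of_notMem inv_DD hL hmin hVp hVM (hVn L) hBD (hBR.trans hR.le) (hBR.trans hRM) hBD.1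
      hBO hxL hxM hEL hBE hVE hxE
  · -- the core
    intro b hb hbcore
    let K : Subgroup G :=
      { carrier := {y | y ∈ L ∧ ∀ x ∈ L, x⁻¹ * y * x ∈ M}
        one_mem' := ⟨one_mem _, fun x _ => by
          have e : x⁻¹ * 1 * x = 1 := by group
          rw [e]; exact one_mem _⟩
        mul_mem' := by
          rintro a c ⟨ha, ha'⟩ ⟨hc, hc'⟩
          refine ⟨L.mul_mem ha hc, fun x hx => ?_⟩
          have e : x⁻¹ * (a * c) * x = (x⁻¹ * a * x) * (x⁻¹ * c * x) := by group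
          rw [e]; exact M.mul_mem (ha' x hx) (hc' x hx)
        inv_mem' := by
          rintro a ⟨ha, ha'⟩
          refine ⟨L.inv_mem ha, fun x hx => ?_⟩
          have e : x⁻¹ * a⁻¹ * x = (x⁻¹ * a * x)⁻¹ := by group
          rw [e]; exact M.inv_mem (ha' x hx) }
    have hKn : ∀ k ∈ L, ∀ m ∈ K, k * m * k⁻¹ ∈ K := by
      rintro k hk m ⟨hm, hm'⟩
      refine ⟨L.mul_mem (L.mul_mem hk hm) (L.inv_mem hk), fun x hx => ?_⟩
      have h1 := hm' (k⁻¹ * x) (L.mul_mem (L.inv_mem hk) hx)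
      have e : (k⁻¹ * x)⁻¹ * m * (k⁻¹ * x) = x⁻¹ * (k * m * k⁻¹) * x := by group
      rwa [e] at h1
    have hKM : K ≤ M := by
      rintro k ⟨-, hk'⟩
      have := hk' 1 (one_mem _)
      simpa using this
    have hKL : K ≤ L := fun k hk => hk.1
    have hbK : b ∈ R ⊓ K := ⟨hBR hb, hR.le (hBR hb), hbcore⟩
    have hVK : V ≤ R ⊓ K := fun v hv => by
      refine ⟨hVR hv, hL.VL hv, fun x hx => hVM ?_⟩
      have := (mem_normalizer_iff.1 (hVn L (L.inv_mem hx)) v).1 hv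
      simpa using this
    have hRN : R ≤ normalizer ((R ⊓ K : Subgroup G) : Set G) := by
      have key : ∀ r ∈ R, ∀ y ∈ R ⊓ K, r * y * r⁻¹ ∈ R ⊓ K := fun r hr y hy =>
        ⟨R.mul_mem (R.mul_mem hr hy.1) (R.inv_mem hr), hKn r (hR.le hr) y hy.2⟩
      intro r hr
      rw [mem_normalizer_iff]
      intro y
      refine ⟨key r hr y, fun hy => ?_⟩
      have h1 := key r⁻¹ (R.inv_mem hr) _ hy
      have e : r⁻¹ * (r * y * r⁻¹) * r⁻¹⁻¹ = y := by group
      rwa [e] at h1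
    have hLN : L ≤ normalizer ((R ⊓ K : Subgroup G) : Set G) := by
      by_contra hcon
      apply hL.LM
      refine frattini hR hKL hKn hKM ?_
      exact hgenlt B hBD hBR hBO _ (le_inf (hBR.trans hR.le) (hBR.trans hRN))
        (le_inf hL.VL (hVR.trans hRN))
        (lt_of_le_of_ne inf_le_left fun heq => hcon (inf_eq_left.1 heq))
    rw [mem_centralizer_iff]
    intro v hv
    exact (hOc (R ⊓ K) (inf_le_left.trans hR.le) (hR.isPGroup.to_le inf_le_left) hLN b hbK v hv).symm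
  · -- the offender inequality
    set C := B ⊓ centralizer (V₁ : Set G) with hC
    have hCV : C ≤ centralizer (V₁ : Set G) := inf_le_right
    have hcomm : ∀ x ∈ C ⊔ V₁, ∀ y ∈ C ⊔ V₁, x * y = y * x := by
      intro x hx y hy
      obtain ⟨b₁, hb₁, m₁, hm₁, rfl⟩ :=
        Cfsg.Agent.PLocal.ThompsonReplacement.exists_mul_of_mem_sup hCV hx
      obtain ⟨b₂, hb₂, m₂, hm₂, rfl⟩ :=
        Cfsg.Agent.PLocal.ThompsonReplacement.exists_mul_of_mem_sup hCV hy
      have e1 : b₁ * b₂ = b₂ * b₁ := hBc _ hb₁.1 _ hb₂.1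
      have e2 : m₁ * m₂ = m₂ * m₁ := hVc _ (hV₁V hm₁) _ (hV₁V hm₂)
      have e3 : m₁ * b₂ = b₂ * m₁ := (mem_centralizer_iff.1 hb₂.2) m₁ hm₁
      have e4 : m₂ * b₁ = b₁ * m₂ := (mem_centralizer_iff.1 hb₁.2) m₂ hm₂
      calc b₁ * m₁ * (b₂ * m₂) = b₁ * (m₁ * b₂) * m₂ := by group
        _ = (b₁ * b₂) * (m₁ * m₂) := by rw [e3]; group
        _ = (b₂ * b₁) * (m₂ * m₁) := by rw [e1, e2]
        _ = b₂ * (b₁ * m₂) * m₁ := by group
        _ = b₂ * m₂ * (b₁ * m₁) := by rw [← e4]; group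
    have hCR : C ⊔ V₁ ≤ R := sup_le (inf_le_left.trans hBR) (hV₁V.trans hVR)
    have h1 : Nat.card (C ⊔ V₁ : Subgroup G) ≤ Nat.card B :=
      hBD.2.2 _ (hR.isPGroup.to_le hCR) hcomm
    -- `|C V₁| |C ∩ V₁| = |C| |V₁|`
    have h2 : Nat.card C * Nat.card V₁ ≤ Nat.card (C ⊔ V₁ : Subgroup G) * Nat.card (C ⊓ V₁ : Subgroup G) := by
      have e1 : Nat.card (C ⊓ V₁ : Subgroup G) * V₁.relIndex C = Nat.card C := by
        have h := Subgroup.relIndex_mul_relIndex (⊥ : Subgroup G) (C ⊓ V₁) C bot_le inf_le_left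
        rw [Subgroup.relIndex_bot_left, Subgroup.relIndex_bot_left, Subgroup.inf_relIndex_left] at h
        exact h
      have e2 : Nat.card V₁ * V₁.relIndex (C ⊔ V₁) = Nat.card (C ⊔ V₁ : Subgroup G) := by
        have h := Subgroup.relIndex_mul_relIndex (⊥ : Subgroup G) V₁ (C ⊔ V₁) bot_le le_sup_right
        rw [Subgroup.relIndex_bot_left, Subgroup.relIndex_bot_left] at h
        exact h
      have e3 : V₁.relIndex C ≤ V₁.relIndex (C ⊔ V₁) := by
        refine Subgroup.relIndex_le_of_le_right le_sup_left ?_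
        intro h0
        rw [h0, mul_zero] at e2
        exact (Nat.card_pos (α := (C ⊔ V₁ : Subgroup G))).ne e2
      calc Nat.card C * Nat.card V₁ = Nat.card (C ⊓ V₁ : Subgroup G) * (Nat.card V₁ * V₁.relIndex C) := by
            rw [← e1]; ring
        _ ≤ Nat.card (C ⊓ V₁ : Subgroup G) * (Nat.card V₁ * V₁.relIndex (C ⊔ V₁)) := by gcongr
        _ = _ := by rw [e2]; ring
    have h3 : C ⊓ V₁ ≤ V₁ ⊓ centralizer (B : Set G) := by
      rintro x ⟨hx, hxV⟩
      exact ⟨hxV, mem_centralizer_iff.2 fun b hb => hBc b hb x hx.1⟩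
    have h4 : Nat.card (C ⊓ V₁ : Subgroup G) ≤ Nat.card (V₁ ⊓ centralizer (B : Set G) : Subgroup G) :=
      Subgroup.card_le_of_le h3
    -- indices
    have h5 : Nat.card (V₁ ⊓ centralizer (B : Set G) : Subgroup G) * (centralizer (B : Set G)).relIndex V₁ =
        Nat.card V₁ := by
      have := Subgroup.relIndex_mul_relIndex (⊥ : Subgroup G) (V₁ ⊓ centralizer (B : Set G)) V₁ bot_le inf_le_left
      rwa [Subgroup.relIndex_bot_left, Subgroup.relIndex_bot_left, Subgroup.inf_relIndex_left] at this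
    have h6 : Nat.card C * (centralizer (V₁ : Set G)).relIndex B = Nat.card B := by
      have := Subgroup.relIndex_mul_relIndex (⊥ : Subgroup G) C B bot_le inf_le_left
      rwa [Subgroup.relIndex_bot_left, Subgroup.relIndex_bot_left, hC, Subgroup.inf_relIndex_left] at this
    have hpos : 0 < Nat.card C := Nat.card_pos
    have hpos2 : 0 < Nat.card (V₁ ⊓ centralizer (B : Set G) : Subgroup G) := Nat.card_pos
    -- `|C| |D| i = |C| |V₁| = |C V₁| |C ∩ V₁| ≤ |B| |D| = |C| j |D|`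
    have h7 : (Nat.card C * Nat.card (V₁ ⊓ centralizer (B : Set G) : Subgroup G)) *
        (centralizer (B : Set G)).relIndex V₁ ≤
        (Nat.card C * Nat.card (V₁ ⊓ centralizer (B : Set G) : Subgroup G)) *
        (centralizer (V₁ : Set G)).relIndex B := by
      calc _ = Nat.card C * Nat.card V₁ := by rw [← h5]; ring
        _ ≤ Nat.card (C ⊔ V₁ : Subgroup G) * Nat.card (C ⊓ V₁ : Subgroup G) := h2
        _ ≤ Nat.card B * Nat.card (V₁ ⊓ centralizer (B : Set G) : Subgroup G) := Nat.mul_le_mul h1 h4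
        _ = _ := by rw [← h6]; ring
    exact Nat.le_of_mul_le_mul_left h7 (Nat.mul_pos hpos hpos2)

end Cfsg.Agent.H789.LocalData
end
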