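import Cfsg.Agent.H789.RankOneSetup
import Cfsg.Agent.H789.LocalData
set_option linter.all false

-- part: H789/RankOneMain
section
/-!
# The torus of a rank one configuration (helper789)
-/

set_option autoImplicit false
set_option linter.unusedSectionVars false

namespace Cfsg.Agent.H789.RankOne

open Matrix

/-- The diagonal matrix with entries `c`, `c⁻¹`. -/
def dia {F : Type*} [Field F] (c : Fˣ) : SpecialLinearGroup (Fin 2) F :=
  ⟨!![(c : F), 0; 0, ((c⁻¹ : Fˣ) : F)], by rw [det_fin_two_of]; simp⟩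

theorem dia_mulVec {F : Type*} [Field F] (c : Fˣ) (v : Fin 2 → F) :
    (dia c : Matrix (Fin 2) (Fin 2) F).mulVec v = ![(c : F) * v 0, ((c⁻¹ : Fˣ) : F) * v 1] := by
  ext i
  fin_cases i <;> simp [dia, Matrix.mulVec, dotProduct, Fin.sum_univ_two]

variable {L M : Type*} [Group L] [AddCommGroup M] [DistribMulAction L M]

/-- `[t, ⟨g⟩]`. -/
def comm (t : AddSubgroup M) (g : L) : AddSubgroup M :=
  AddSubgroup.closure {z : M | ∃ i : ℕ, ∃ m ∈ t, z = g ^ i • m - m}

namespace Setup

variable {A N : Subgroup L} {t : AddSubgroup M} (h : Setup A N t)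
include h

theorem main [Finite L] [Finite M] {p : ℕ} [Fact p.Prime] (hp : p ≠ 2) (hA : IsPGroup p A)
    (hM : ∀ m : M, ∃ n : ℕ, p ^ n • m = 0) {k : ℕ} (hk : k.Coprime p)
    (hkN : ∀ g ∈ N, ∀ m ∈ t, g ^ k • m = m) :
    ∃ g ∈ N, (∃ m ∈ t, g • m ≠ m) ∧
      ∀ u ∈ comm t g, ∀ v ∈ comm t g, u ≠ 0 → v ≠ 0 → ∃ i : ℕ, g ^ i • u = v := by
  classical
  set C := fx M (⊤ : Subgroup L) with hC
  letI inst : DistribMulAction L (M ⧸ C) := actQ C smul_mem_fx_top
  have hsm : ∀ (l : L) (m : M), l • (QuotientAddGroup.mk' C m) = QuotientAddGroup.mk' C (l • m) :=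
    fun l m => rfl
  have hR := h.rank hC hsm
  set U := (fx M A).map (QuotientAddGroup.mk' C) with hU
  obtain ⟨F, iF, iFin, hcF, ρ, e, hρ, he, heU⟩ := hR.exists_natural hA
  have hz : ∀ m : M, QuotientAddGroup.mk' C m = 0 ↔ m ∈ C := fun m => QuotientAddGroup.eq_zero_iff m
  have htU : ∀ m ∈ t, QuotientAddGroup.mk' C m ∈ U := fun m hm =>
    ⟨m, fun a ha => h.fixt a ha m hm, rfl⟩
  -- a vector of `t` outside `C`
  obtain ⟨m₁, hm₁, l₁, hl₁⟩ := h.mov
  have hm₁C : m₁ ∉ C := fun hc => hl₁ (hc l₁ trivial)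
  -- `|F| ≥ 3`
  have hcard3 : 3 ≤ Fintype.card F := by
    rw [hcF]
    have h1 : p ∣ Nat.card U := by
      have h2 : addOrderOf (⟨QuotientAddGroup.mk' C m₁, htU m₁ hm₁⟩ : U) = p := by
        apply addOrderOf_eq_prime
        · apply Subtype.ext
          exact hR.nsmul_eq_zero hA _
        · intro h0
          exact hm₁C ((hz m₁).1 (congrArg Subtype.val h0))
      rw [← h2]
      exact addOrderOf_dvd_natCard _
    have h2 : p.Prime := Fact.out
    have h3 := h2.two_le
    have h4 : p ≤ Nat.card U := Nat.le_of_dvd Nat.card_pos h1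
    omega
  obtain ⟨c, hc⟩ := IsCyclic.exists_generator (α := Fˣ)
  have hc1 : c ≠ 1 := by
    rintro rfl
    have h1 : Fintype.card Fˣ = 1 := by
      rw [Fintype.card_eq_one_iff]
      refine ⟨1, fun y => ?_⟩
      have h2 := hc y
      simpa using h2
    rw [Fintype.card_units] at h1
    omega
  obtain ⟨g, hg⟩ := hρ (dia c)
  have hgU : ∀ q ∈ U, g • q ∈ U := by
    intro q hq
    rw [heU] at hq ⊢
    rw [he, hg, dia_mulVec]
    simp [hq]
  have hgN : g ∈ N := by
    have h1 : g⁻¹ ∈ N := hR.mem_N (g := g⁻¹) (by rw [inv_inv]; exact hgU)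
    simpa using N.inv_mem h1
  have hpow : ∀ (n : ℕ) (q : M ⧸ C), q ∈ U → g ^ n • q ∈ U ∧ e (g ^ n • q) 0 = (c : F) ^ n * e q 0 := by
    intro n
    induction n with
    | zero => intro q hq; simp [hq]
    | succ n ih =>
      intro q hq
      obtain ⟨h1, h2⟩ := ih (g • q) (hgU q hq)
      rw [pow_succ, mul_smul]
      refine ⟨h1, ?_⟩
      rw [h2, he, hg, dia_mulVec]
      simp only [Matrix.cons_val_zero]
      ring
  have hstab : ∀ (n : ℕ), ∀ m ∈ t, g ^ n • m ∈ t := fun n m hm => h.stab _ (pow_mem hgN n) m hm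
  have hDt : comm t g ≤ t := by
    rw [comm, AddSubgroup.closure_le]
    rintro _ ⟨i, m, hm, rfl⟩
    exact t.sub_mem (hstab i m hm) hm
  have hDg : ∀ n : ℕ, ∀ u ∈ comm t g, g ^ n • u ∈ comm t g := by
    intro n u hu
    have h1 : comm t g ≤ (comm t g).comap (DistribSMul.toAddMonoidHom M (g ^ n)) := by
      rw [comm, AddSubgroup.closure_le]
      rintro _ ⟨i, m, hm, rfl⟩
      apply AddSubgroup.subset_closure
      refine ⟨i, g ^ n • m, hstab n m hm, ?_⟩
      show g ^ n • (g ^ i • m - m) = _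
      rw [smul_sub, ← mul_smul, ← mul_smul, ← pow_add, ← pow_add, add_comm]
    exact h1 hu
  -- the trace
  have htr : ∀ u ∈ comm t g, ∑ j ∈ Finset.range k, g ^ j • u = 0 := by
    intro u hu
    let Tr : M →+ M := ∑ j ∈ Finset.range k, DistribSMul.toAddMonoidHom M (g ^ j)
    have hTr : ∀ m, Tr m = ∑ j ∈ Finset.range k, g ^ j • m := fun m => by
      simp [Tr, AddMonoidHom.finset_sum_apply]
    have h1 : ∀ m ∈ t, Tr (g • m) = Tr m := by
      intro m hm
      have h2 : Tr (g • m) + m = Tr m + m := by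
        rw [hTr, hTr]
        have h3 := Finset.sum_range_succ (fun j => g ^ j • m) k
        have h4 := Finset.sum_range_succ' (fun j => g ^ j • m) k
        rw [h3] at h4
        have h5 : g ^ k • m = m := hkN g hgN m hm
        rw [h5, pow_zero, one_smul] at h4
        rw [h4]
        congr 1
        refine Finset.sum_congr rfl fun j _ => ?_
        rw [pow_succ, mul_smul]
      exact add_right_cancel h2
    have h2 : ∀ (n : ℕ), ∀ m ∈ t, Tr (g ^ n • m) = Tr m := by
      intro n
      induction n with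
      | zero => intro m _; simp
      | succ n ih =>
        intro m hm
        rw [pow_succ, mul_smul, ih _ (h.stab g hgN m hm), h1 m hm]
    have h3 : comm t g ≤ Tr.ker := by
      rw [comm, AddSubgroup.closure_le]
      rintro _ ⟨i, m, hm, rfl⟩
      show Tr _ = 0
      rw [map_sub, h2 i m hm, sub_self]
    rw [← hTr]
    exact h3 hu
  have hDC : ∀ u ∈ comm t g, u ∈ C → u = 0 := by
    intro u hu huC
    have h1 := htr u hu
    have h2 : ∀ j : ℕ, g ^ j • u = u := fun j => huC _ trivial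
    simp only [h2, Finset.sum_const, Finset.card_range] at h1
    obtain ⟨n, hn⟩ := hM u
    have h3 : (k.gcd (p ^ n)) • u = 0 := by
      have h4 : addOrderOf u ∣ k.gcd (p ^ n) :=
        Nat.dvd_gcd (addOrderOf_dvd_of_nsmul_eq_zero h1) (addOrderOf_dvd_of_nsmul_eq_zero hn)
      exact addOrderOf_dvd_iff_nsmul_eq_zero.1 h4
    rw [Nat.Coprime.pow_right n hk, one_nsmul] at h3
    exact h3
  have hinjU : ∀ q ∈ U, e q 0 = 0 → q = 0 := by
    intro q hq h0
    apply e.injective
    rw [map_zero]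
    ext i
    fin_cases i
    · exact h0
    · exact (heU q).1 hq
  refine ⟨g, hgN, ?_, ?_⟩
  · by_contra hcon
    push Not at hcon
    have h1 := hcon m₁ hm₁
    have h2 := (hpow 1 _ (htU m₁ hm₁)).2
    rw [pow_one, pow_one, hsm, h1] at h2
    have h3 : e (QuotientAddGroup.mk' C m₁) 0 ≠ 0 := fun h0 =>
      hm₁C ((hz m₁).1 (hinjU _ (htU m₁ hm₁) h0))
    apply hc1
    apply Units.ext
    have h4 : ((c : F) - 1) * e (QuotientAddGroup.mk' C m₁) 0 = 0 := by
      rw [sub_mul, one_mul, ← h2, sub_self]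
    rw [Units.val_one]
    exact sub_eq_zero.1 ((mul_eq_zero.1 h4).resolve_right h3)
  · intro u hu v hv hu0 hv0
    have hu1 : e (QuotientAddGroup.mk' C u) 0 ≠ 0 := fun h0 =>
      hu0 (hDC u hu ((hz u).1 (hinjU _ (htU u (hDt hu)) h0)))
    have hv1 : e (QuotientAddGroup.mk' C v) 0 ≠ 0 := fun h0 =>
      hv0 (hDC v hv ((hz v).1 (hinjU _ (htU v (hDt hv)) h0)))
    obtain ⟨n, hn⟩ : ∃ n : ℕ, c ^ n = (Units.mk0 _ hv1) * (Units.mk0 _ hu1)⁻¹ := by
      have h1 := hc ((Units.mk0 _ hv1) * (Units.mk0 _ hu1)⁻¹)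
      rw [← mem_powers_iff_mem_zpowers] at h1
      exact h1
    refine ⟨n, ?_⟩
    have h1 : g ^ n • u - v ∈ comm t g := (comm t g).sub_mem (hDg n u hu) hv
    have h2 : QuotientAddGroup.mk' C (g ^ n • u - v) = 0 := by
      apply hinjU _ (htU _ (hDt h1))
      rw [map_sub, ← hsm, map_sub, Pi.sub_apply, (hpow n _ (htU u (hDt hu))).2]
      have h3 := congrArg (fun z : Fˣ => (z : F)) hn
      simp only [Units.val_pow_eq_pow_val, Units.val_mul, Units.val_mk0, Units.val_inv_eq_inv_val] at h3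
      rw [h3]
      field_simp
      ring
    exact sub_eq_zero.1 (hDC _ h1 ((hz _).1 h2))

end Setup

end Cfsg.Agent.H789.RankOne
end

-- part: H789/LocalTorus
section
/-!
# The local theorem: a torus acting on a central subgroup `T` (helper789)

`G` finite, `p` odd, `S` a Sylow `p`-subgroup, `T ≤ Z(S) ∩ O_p(G)` not normal in `G`, `N_G(J(S)) ≤ N_G(T)`.  Then some
`g ∈ N_G(T)` acts on `T` as an automorphism of order prime to `p`, nontrivially, and transitively on the nonidentity elements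
of `[T, ⟨g⟩]`.
-/

set_option autoImplicit false

namespace Cfsg.Agent.H789.LocalTorus

open Subgroup Cfsg Cfsg.Agent.H802 Cfsg.Agent.H789.RankOne
open Cfsg.Agent.H789.LocalData
open scoped commutatorElement

variable {G : Type*} [Group G] {p : ℕ}

/-- The conjugation action of `L` on `⟨T^L⟩`. -/
def cj (L T : Subgroup G) : ↥L →* MulAut ↥(nc L T) :=
  (nc L T).normalizerMonoidHom.comp (Subgroup.inclusion le_normalizer_nc)

theorem coe_cj {L T : Subgroup G} (l : L) (x : nc L T) : ((cj L T l x : nc L T) : G) = l * x * (l : G)⁻¹ :=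
  rfl

/-- The additive action. -/
@[reducible] def act (L T : Subgroup G) : DistribMulAction ↥L (Additive ↥(nc L T)) where
  smul l x := Additive.ofMul (cj L T l x.toMul)
  one_smul x := by
    show Additive.ofMul (cj L T 1 x.toMul) = x
    rw [map_one]; rfl
  mul_smul a b x := by
    show Additive.ofMul (cj L T (a * b) x.toMul) = Additive.ofMul (cj L T a (cj L T b x.toMul))
    rw [map_mul]; rfl
  smul_zero l := by
    show Additive.ofMul (cj L T l 1) = 0
    rw [map_one]; rfl
  smul_add l x y := by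
    show Additive.ofMul (cj L T l (x.toMul * y.toMul)) = _
    rw [map_mul]; rfl

/-- The commutative group `⟨T^L⟩`. -/
@[reducible] def cg {L T : Subgroup G} (h : ∀ x ∈ nc L T, ∀ y ∈ nc L T, x * y = y * x) :
    CommGroup ↥(nc L T) :=
  { (inferInstance : Group ↥(nc L T)) with mul_comm := fun a b => Subtype.ext (h a a.2 b b.2) }

theorem nc_le_V {T L B V : Subgroup G} (h : Loc p T L B V) : nc L T ≤ V :=
  nc_le_of_normalizes h.TV h.LV

theorem nc_comm {T L B V : Subgroup G} (h : Loc p T L B V) :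
    ∀ x ∈ nc L T, ∀ y ∈ nc L T, x * y = y * x :=
  fun x hx y hy => h.Vc x (nc_le_V h hx) y (nc_le_V h hy)

/-- `T` inside `⟨T^L⟩`, additively. -/
def tt (L T : Subgroup G) : AddSubgroup (Additive ↥(nc L T)) :=
  Subgroup.toAddSubgroup (T.subgroupOf (nc L T))

theorem mem_tt {L T : Subgroup G} {x : nc L T} : Additive.ofMul x ∈ tt L T ↔ (x : G) ∈ T := Iff.rfl

theorem setup [Finite G] [Fact p.Prime] {T L B V : Subgroup G} (h : Loc p T L B V) :
    letI : CommGroup ↥(nc L T) := cg (nc_comm h)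
    letI : DistribMulAction ↥L (Additive ↥(nc L T)) := act L T
    Setup (L := ↥L) (M := Additive ↥(nc L T)) (B.subgroupOf L) ((normalizer (T : Set G)).subgroupOf L)
      (tt L T) := by
  letI : CommGroup ↥(nc L T) := cg (nc_comm h)
  letI : DistribMulAction ↥L (Additive ↥(nc L T)) := act L T
  have hsm : ∀ (l : L) (x : nc L T), l • (Additive.ofMul x) = Additive.ofMul (cj L T l x) := fun l x => rfl
  have hkr : ∀ l : L, l ∈ kr L (Additive ↥(nc L T)) ↔ ∀ v ∈ nc L T, (l : G) * v = v * l := by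
    intro l
    constructor
    · intro hl v hv
      have h1 : cj L T l ⟨v, hv⟩ = ⟨v, hv⟩ := hl (Additive.ofMul ⟨v, hv⟩)
      have h2 := congrArg Subtype.val h1
      rw [coe_cj] at h2
      exact mul_inv_eq_iff_eq_mul.1 h2
    · intro hl x
      show Additive.ofMul (cj L T l x.toMul) = x
      have h1 : cj L T l x.toMul = x.toMul := by
        apply Subtype.ext
        rw [coe_cj]
        exact mul_inv_eq_iff_eq_mul.2 (hl _ x.toMul.2)
      rw [h1]; rfl
  have hfx : ∀ x : nc L T, Additive.ofMul x ∈ fx (Additive ↥(nc L T)) (B.subgroupOf L) ↔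
      (x : G) ∈ centralizer (B : Set G) := by
    intro x
    constructor
    · intro hx
      rw [mem_centralizer_iff]
      intro b hb
      have h1 : cj L T ⟨b, h.BL hb⟩ x = x := hx ⟨b, h.BL hb⟩ hb
      have h2 := congrArg Subtype.val h1
      rw [coe_cj] at h2
      exact mul_inv_eq_iff_eq_mul.1 h2
    · intro hx b hb
      rw [hsm]
      congr 1
      apply Subtype.ext
      rw [coe_cj]
      exact mul_inv_eq_iff_eq_mul.2 ((mem_centralizer_iff.1 hx) b hb)
  refine
    { ne := ?_, AN := ?_, stab := ?_, fixt := ?_, gen := ?_, quad := ?_, span := ?_, core := ?_,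
      card := ?_, mov := ?_ }
  · intro htop
    apply h.LM
    intro l hl
    have h1 : (⟨l, hl⟩ : L) ∈ (normalizer (T : Set G)).subgroupOf L := by rw [htop]; trivial
    exact h1
  · intro b hb
    exact (centralizer_le_normalizer _) (h.BT hb)
  · intro g hg m hm
    exact (mem_normalizer_iff.1 hg _).1 hm
  · intro b hb m hm
    show Additive.ofMul (cj L T b m.toMul) = m
    have h1 : cj L T b m.toMul = m.toMul := by
      apply Subtype.ext
      rw [coe_cj]
      exact mul_inv_eq_iff_eq_mul.2 ((mem_centralizer_iff.1 (h.BT hb)) _ hm).symm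
    rw [h1]; rfl
  · intro x hx E hkE hBE hxE
    have h1 : E.map L.subtype = L := by
      refine h.gen x x.2 (fun hc => hx hc) _ (Subgroup.map_subtype_le E) ?_ ?_ ?_
      · intro b hb
        exact ⟨⟨b, h.BL hb⟩, hBE hb, rfl⟩
      · intro v hv
        refine ⟨⟨v, h.VL hv⟩, hkE ?_, rfl⟩
        rw [hkr]
        intro w hw
        exact h.Vc v hv w (nc_le_V h hw)
      · intro b hb
        exact ⟨x * ⟨b, h.BL hb⟩ * x⁻¹, hxE _ hb, rfl⟩
    rw [eq_top_iff]
    rintro ⟨l, hl⟩ _
    have h2 : l ∈ E.map L.subtype := by rw [h1]; exact hl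
    obtain ⟨e, he, hel⟩ := h2
    have : e = ⟨l, hl⟩ := Subtype.ext hel
    rw [← this]; exact he
  · intro a ha b hb m
    have e0 : a • m - m = Additive.ofMul (cj L T a m.toMul * (m.toMul)⁻¹) := by
      rw [sub_eq_add_neg]; rfl
    rw [e0]
    show Additive.ofMul (cj L T b (cj L T a m.toMul * (m.toMul)⁻¹)) =
      Additive.ofMul (cj L T a m.toMul * (m.toMul)⁻¹)
    congr 1
    apply Subtype.ext
    rw [coe_cj]
    have h1 := h.quad a ha b hb m.toMul m.toMul.2
    have e : ((cj L T a m.toMul * (m.toMul)⁻¹ : nc L T) : G) = ⁅(m.toMul : G), (a : G)⁆⁻¹ := by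
      show (a : G) * (m.toMul : G) * (a : G)⁻¹ * (m.toMul : G)⁻¹ = _
      rw [commutatorElement_def]; group
    rw [e]
    have h2 : Commute (b : G) ⁅(m.toMul : G), (a : G)⁆⁻¹ := Commute.inv_right h1
    exact mul_inv_eq_iff_eq_mul.2 h2
  · intro D hD
    rw [eq_top_iff]
    intro y _
    have h1 : nc L T ≤ ((AddSubgroup.toSubgroup D : Subgroup (nc L T))).map (nc L T).subtype := by
      refine nc_le fun l hl t ht => ?_
      exact ⟨⟨l * t * l⁻¹, conj_mem_nc hl ht⟩, hD ⟨l, hl⟩ (Additive.ofMul ⟨t, le_nc ht⟩) ht, rfl⟩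
    obtain ⟨z, hz, hzy⟩ := h1 (y.toMul).2
    have : z = y.toMul := Subtype.ext hzy
    rw [this] at hz
    exact hz
  · intro b hb hcore
    rw [hkr]
    intro v hv
    exact ((mem_centralizer_iff.1 (h.core b hb fun x hx => hcore ⟨x, hx⟩)) v hv).symm
  · have h1 : (fx (Additive ↥(nc L T)) (B.subgroupOf L)).index = (centralizer (B : Set G)).relIndex (nc L T) := by
      have h2 : fx (Additive ↥(nc L T)) (B.subgroupOf L) =
          Subgroup.toAddSubgroup ((centralizer (B : Set G)).subgroupOf (nc L T)) := by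
        ext x
        exact hfx x.toMul
      rw [h2]
      rfl
    have h2 : (kr L (Additive ↥(nc L T))).relIndex (B.subgroupOf L) =
        (centralizer (nc L T : Set G)).relIndex B := by
      have h3 : kr L (Additive ↥(nc L T)) = (centralizer (nc L T : Set G)).subgroupOf L := by
        ext l
        rw [hkr, Subgroup.mem_subgroupOf, mem_centralizer_iff]
        exact ⟨fun h v hv => (h v hv).symm, fun h v hv => (h v hv).symm⟩
      rw [h3]
      exact Subgroup.relIndex_subgroupOf h.BL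
    rw [h1, h2]
    exact h.card
  · by_contra hcon
    push Not at hcon
    apply h.LM
    intro l hl
    rw [mem_normalizer_iff]
    have key : ∀ t ∈ T, l * t * l⁻¹ = t := by
      intro t ht
      have h1 : cj L T ⟨l, hl⟩ ⟨t, le_nc ht⟩ = ⟨t, le_nc ht⟩ :=
        hcon (Additive.ofMul ⟨t, le_nc ht⟩) ht ⟨l, hl⟩
      exact congrArg Subtype.val h1
    intro t
    constructor
    · intro ht
      rw [key t ht]; exact ht
    · intro ht
      have h1 := key _ ht
      have h2 : l * t * l⁻¹ = t := by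
        have h3 := congrArg (fun z => l⁻¹ * z * l) h1
        have e : l⁻¹ * (l * (l * t * l⁻¹) * l⁻¹) * l = l * t * l⁻¹ := by group
        have e2 : l⁻¹ * (l * t * l⁻¹) * l = t := by group
        rwa [e, e2] at h3
      rw [← h2]; exact ht

/-- **The local theorem.** -/
theorem exists_torus [Finite G] [Fact p.Prime] (hp : p ≠ 2) {S T Q : Subgroup G} (hS : SylIn p S ⊤)
    (hTc : S ≤ centralizer (T : Set G)) (hQn : Q.Normal) (hQp : IsPGroup p Q) (hTQ : T ≤ Q)
    (hJ : normalizer (thompsonSubgroupAOf S : Set G) ≤ normalizer (T : Set G))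
    (hT : normalizer (T : Set G) ≠ ⊤) :
    ∃ (g : G) (χ : MulAut T), (∀ x : T, ((χ x : T) : G) = g * x * g⁻¹) ∧ χ ≠ 1 ∧
      (Nat.card (zpowers χ)).Coprime p ∧
      ∀ a ∈ closure {y : T | ∃ ψ ∈ zpowers χ, ∃ t : T, y = ψ t * t⁻¹},
        ∀ b ∈ closure {y : T | ∃ ψ ∈ zpowers χ, ∃ t : T, y = ψ t * t⁻¹},
          a ≠ 1 → b ≠ 1 → ∃ ψ ∈ zpowers χ, ψ a = b := by
  classical
  obtain ⟨L, B, V, h⟩ := exists_loc hS hTc hQn hQp hTQ hJ hT
  letI : CommGroup ↥(nc L T) := cg (nc_comm h)
  letI : DistribMulAction ↥L (Additive ↥(nc L T)) := act L T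
  have hset := setup h
  -- the exponent prime to `p`
  set k := (centralizer (T : Set G)).relIndex (normalizer (T : Set G)) with hk
  have hSN : S ≤ normalizer (T : Set G) := hTc.trans (centralizer_le_normalizer _)
  have hSM : SylIn p S (normalizer (T : Set G)) := hS.mono hSN le_top
  have hkp : k.Coprime p := by
    rw [Nat.coprime_comm, (Fact.out : p.Prime).coprime_iff_not_dvd]
    intro hd
    obtain ⟨S', hS'⟩ := hSM.exists_sylow
    apply S'.not_dvd_index
    rw [hS']
    have h1 := Subgroup.relIndex_mul_relIndex S (centralizer (T : Set G)) (normalizer (T : Set G)) hTc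
      (centralizer_le_normalizer _)
    show p ∣ S.relIndex (normalizer (T : Set G))
    rw [← h1]
    exact dvd_mul_of_dvd_right hd _
  have hkN : ∀ g ∈ normalizer (T : Set G), g ^ k ∈ centralizer (T : Set G) := by
    intro g hg
    have hn : ((centralizer (T : Set G)).subgroupOf (normalizer (T : Set G))).Normal := by
      rw [← Subgroup.normalizerMonoidHom_ker]
      infer_instance
    have h1 := Subgroup.pow_index_mem ((centralizer (T : Set G)).subgroupOf (normalizer (T : Set G)))
      ⟨g, hg⟩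
    exact h1
  have hVp : IsPGroup p (nc L T) := h.Vp.to_le (nc_le_V h)
  obtain ⟨g, hgN, ⟨m, hm, hgm⟩, htr⟩ := hset.main hp (p := p)
    (hA := h.Bp.comap_of_injective L.subtype L.subtype_injective)
    (by
      intro m
      obtain ⟨n, hn⟩ := hVp m.toMul
      exact ⟨n, hn⟩)
    hkp
    (by
      intro g hg m hm
      have h1 := hkN g hg
      show Additive.ofMul (cj L T (g ^ k) m.toMul) = m
      have h2 : cj L T (g ^ k) m.toMul = m.toMul := by
        apply Subtype.ext
        rw [coe_cj]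
        exact mul_inv_eq_iff_eq_mul.2 ((mem_centralizer_iff.1 h1) _ hm).symm
      rw [h2]; rfl)
  have hgN' : (g : G) ∈ normalizer (T : Set G) := hgN
  set χ : MulAut T := T.normalizerMonoidHom ⟨g, hgN'⟩ with hχ
  have hχv : ∀ x : T, ((χ x : T) : G) = g * x * (g : G)⁻¹ := fun x => rfl
  have hχk : χ ^ k = 1 := by
    rw [hχ, ← map_pow]
    have h1 : (⟨g, hgN'⟩ : normalizer (T : Set G)) ^ k ∈ T.normalizerMonoidHom.ker := by
      rw [Subgroup.normalizerMonoidHom_ker]
      exact hkN g hgN'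
    exact h1
  have hnc : ∀ x : T, (x : G) ∈ nc L T := fun x => le_nc x.2
  -- powers of `χ` and of `g`
  have hpow : ∀ (n : ℕ) (x : T), g ^ n • (Additive.ofMul (⟨x, hnc x⟩ : nc L T)) =
      Additive.ofMul (⟨((χ ^ n) x : T), hnc _⟩ : nc L T) := by
    intro n
    induction n with
    | zero => intro x; rw [pow_zero, one_smul]; rfl
    | succ n ih =>
      intro x
      rw [pow_succ, mul_smul, pow_succ]
      exact ih (χ x)
  have hfin : Finite (MulAut T) := inferInstance
  have hzp : ∀ ψ ∈ zpowers χ, ∃ n : ℕ, χ ^ n = ψ := by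
    intro ψ hψ
    rw [← mem_powers_iff_mem_zpowers] at hψ
    exact hψ
  -- transfer of the commutator subgroup
  have hcl : ∀ a ∈ closure {y : T | ∃ ψ ∈ zpowers χ, ∃ t : T, y = ψ t * t⁻¹},
      Additive.ofMul (⟨a, hnc a⟩ : nc L T) ∈ comm (tt L T) g := by
    intro a ha
    induction ha using Subgroup.closure_induction with
    | mem y hy =>
      obtain ⟨ψ, hψ, t, rfl⟩ := hy
      obtain ⟨n, rfl⟩ := hzp ψ hψ
      apply AddSubgroup.subset_closure
      refine ⟨n, Additive.ofMul ⟨t, hnc t⟩, t.2, ?_⟩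
      rw [hpow, sub_eq_add_neg]
      rfl
    | one => exact (comm (tt L T) g).zero_mem
    | mul x y _ _ hx hy => exact (comm (tt L T) g).add_mem hx hy
    | inv x _ hx => exact (comm (tt L T) g).neg_mem hx
  refine ⟨g, χ, hχv, ?_, ?_, ?_⟩
  · intro h1
    apply hgm
    have h2 : cj L T g m.toMul = m.toMul := by
      apply Subtype.ext
      rw [coe_cj]
      have h3 := hχv ⟨m.toMul, hm⟩
      rw [h1] at h3
      exact h3.symm
    show Additive.ofMul (cj L T g m.toMul) = m
    rw [h2]; rfl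
  · rw [Nat.card_zpowers]
    exact Nat.Coprime.coprime_dvd_left (orderOf_dvd_of_pow_eq_one hχk) hkp
  · intro a ha b hb ha1 hb1
    obtain ⟨i, hi⟩ := htr _ (hcl a ha) _ (hcl b hb)
      (fun h0 => ha1 (Subtype.ext (congrArg (fun z : Additive ↥(nc L T) => ((z.toMul : nc L T) : G)) h0)))
      (fun h0 => hb1 (Subtype.ext (congrArg (fun z : Additive ↥(nc L T) => ((z.toMul : nc L T) : G)) h0)))
    refine ⟨χ ^ i, pow_mem (mem_zpowers χ) i, ?_⟩
    rw [hpow] at hi
    exact Subtype.ext (congrArg (fun z : Additive ↥(nc L T) => ((z.toMul : nc L T) : G)) hi)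

end Cfsg.Agent.H789.LocalTorus
end
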