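import Cfsg.Agent.H771.NExt
import Cfsg.Agent.H782.QdLocal
import Cfsg.Agent.PLocal.ThompsonJA
import Cfsg.Agent.H789.LocalTorus
import Cfsg.Agent.H753.NormModel
import Cfsg.Agent.H781.NormSys
import Cfsg.Agent.H771.ModelUnique
import Cfsg.Agent.H802.FusKSat
set_option linter.all false

-- part: H789/FusTorusA
section
/-!
# Central subgroups fixed by the automizers: the fusion step (helper789)

`T` is a subgroup of `Z(S)`.  `Fixes F T K`: every map of `F` from `K` to itself carries `T` into itself.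

* `nExt_of_fixes`: if `Fixes F T H` for all `T ≤ H ≤ S` with `k ≤ |H|`, every map with source of order `≥ k`
  extends to a map normalizing `T`;
* `exists_moving`: if `T` is not weakly closed and `Aut_F(J(S))` fixes `T`, some fully normalized centric `H`
  has `¬ Fixes F T H`, with `N_S(H)` of largest order.
-/

set_option autoImplicit false

namespace Cfsg.Agent.H789.FusTorus

open Cfsg Cfsg.FusionSystem Cfsg.Agent.H802 Cfsg.Agent.H771
open Cfsg.Agent.H782.QdLocal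

universe u

variable {Ω : Type u} [Group Ω] {S : Subgroup Ω}

/-- Every map of `F` from `K` to itself carries `T ∩ K` into `T`. -/
def Fixes (F : FusionSystem S) (T K : Subgroup Ω) : Prop :=
  ∀ φ ∈ F.Hom K, (∀ x : K, φ x ∈ K) → ∀ (x : Ω) (hx : x ∈ K), x ∈ T → φ ⟨x, hx⟩ ∈ T

section

variable [Finite S] {p : ℕ} [Fact p.Prime]

/-- **Alperin's theorem for a central subgroup.** -/
theorem nExt_of_fixes (hS : IsPGroup p S) {F : FusionSystem S} (hF : F.IsSaturated p)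
    {T : Subgroup Ω} (hTS : T ≤ S) (hTc : T ≤ Subgroup.centralizer (S : Set Ω)) (k : ℕ)
    (h : ∀ H : Subgroup Ω, T ≤ H → H ≤ S → k ≤ Nat.card H → Fixes F T H) :
    ∀ (P : Subgroup Ω) (φ : P →* Ω), φ ∈ F.Hom P → k ≤ Nat.card P → NExt F T P φ := by
  have hfT : Finite T := finite_of_le hTS
  refine Cfsg.Agent.H759.saturated_induction F hS hF
    (fun P φ => k ≤ Nat.card P → NExt F T P φ) ?_ ?_ ?_ ?_
  · intro P R φ χ hφ hM hR he hk
    have hfP : Finite P := finite_of_le (hom_le hφ)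
    exact nExt_res (hM (hk.trans (Subgroup.card_le_of_le hR))) hR (fun x hx => he ⟨x, hx⟩)
  · intro P Q φ ψ χ hφ hψ hM hM' he hk
    have hfQ : Finite Q := finite_of_le (hom_le hψ)
    have h1 : Nat.card P ≤ Nat.card Q :=
      card_le_of_maps (F.injective_of_mem hφ) le_rfl (fun x hx => (he ⟨x, hx⟩).1)
    exact nExt_comp (hM hk) (hM' (hk.trans h1)) he
  · intro P R φ χ hφ hM hχ he hk
    have hfP : Finite P := finite_of_le (hom_le hφ)
    refine nExt_inv (hM (hk.trans ?_)) he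
    refine card_le_of_maps (F.injective_of_mem hχ) le_rfl (fun y hy => ?_)
    obtain ⟨x, -, hx⟩ := he ⟨y, hy⟩
    rw [hx]
    exact x.2
  · intro Q hQa hQr IH α hα hk
    have hQS := hQa.1
    have hfQ : Finite Q := finite_of_le hQS
    have hφ : Q.subtype.comp α.toMonoidHom ∈ F.Hom Q := (mem_autGroup_iff F hQS α).1 hα
    set φ : Q →* Ω := Q.subtype.comp α.toMonoidHom with hφdef
    have hφm : ∀ x : Q, φ x ∈ Q := fun x => (α x).2
    by_cases hTQ : T ≤ Q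
    · have hle : Q ⊔ T ≤ Q := sup_le le_rfl hTQ
      refine ⟨_, restrict_mem hφ hle, fun x hx hx' => rfl, fun y hy hy' => ?_⟩
      exact h Q hTQ hQS hk φ hφ hφm y (hTQ hy) hy
    · have hr : φ.range = Q := range_eq_of_mapsTo hφ hφm
      obtain ⟨ψ, hψ, hψe⟩ := hQr.2 Q φ hφ hr
      have hTC : T ≤ centralizerIn S Q :=
        le_inf hTS (hTc.trans (Subgroup.centralizer_le hQS))
      have hle : Q ⊔ T ≤ extender S Q φ :=
        sup_le (le_extender hQS (fun x => hom_apply_mem hφ x))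
          (hTC.trans (centralizerIn_le_extender S Q φ))
      have hfQT : Finite (Q ⊔ T : Subgroup Ω) := finite_of_le (sup_le hQS hTS)
      have hlt : Nat.card Q < Nat.card (Q ⊔ T : Subgroup Ω) := by
        refine lt_of_le_of_ne (Subgroup.card_le_of_le le_sup_left) (fun heq => hTQ ?_)
        rw [Subgroup.eq_of_le_of_card_ge (le_sup_left : Q ≤ Q ⊔ T) heq.ge]
        exact le_sup_right
      have h1 := IH _ _ (restrict_mem hψ hle) hlt (hk.trans hlt.le)
      exact nExt_res h1 le_sup_left (fun x hx => (hψe x hx _).symm)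

/-- `Fixes` for the elements of the automizer. -/
theorem not_fixes_iff {F : FusionSystem S} {T K : Subgroup Ω} :
    ¬ Fixes F T K ↔ ∃ φ ∈ F.Hom K, (∀ x : K, φ x ∈ K) ∧
      ∃ (x : Ω) (hx : x ∈ K), x ∈ T ∧ φ ⟨x, hx⟩ ∉ T := by
  unfold Fixes
  push Not
  rfl

theorem weaklyClosed_of_nExt {F : FusionSystem S} {T : Subgroup Ω} (hTS : T ≤ S)
    (h : ∀ φ : T →* Ω, φ ∈ F.Hom T → NExt F T T φ) : F.WeaklyClosed T := by
  have hfT : Finite T := finite_of_le hTS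
  refine ⟨hTS, fun φ hφ => ?_⟩
  obtain ⟨ψ, hψ, h1, h2⟩ := h φ hφ
  refine range_eq_of_mapsTo hφ (fun x => ?_)
  have hx' : (x : Ω) ∈ T ⊔ T := (le_sup_left : T ≤ T ⊔ T) x.2
  have := h2 x x.2 hx'
  rw [h1 x x.2 hx'] at this
  exact this

/-- Restriction of automorphisms to an invariant subgroup. -/
theorem Fixes.of_le {F : FusionSystem S} {T J K : Subgroup Ω} (hTJ : T ≤ J) (hJK : J ≤ K)
    (hinv : ∀ φ ∈ F.Hom K, (∀ x : K, φ x ∈ K) → ∀ (x : Ω) (hx : x ∈ J), φ ⟨x, hJK hx⟩ ∈ J)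
    (hJ : Fixes F T J) : Fixes F T K := by
  intro φ hφ hφK x hx hxT
  exact hJ _ (restrict_mem hφ hJK) (fun y => hinv φ hφ hφK y y.2) x (hTJ hxT) hxT

/-- A map from `K` to itself preserves `J(K)`. -/
theorem apply_mem_thompson {F : FusionSystem S} {K : Subgroup Ω} [Finite K] {φ : K →* Ω}
    (hφ : φ ∈ F.Hom K) (hφK : ∀ x : K, φ x ∈ K) (x : Ω) (hx : x ∈ thompsonSubgroupAOf K) :
    φ ⟨x, Cfsg.Agent.PLocal.ThompsonJA.thompsonSubgroupAOf_le K hx⟩ ∈ thompsonSubgroupAOf K := by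
  have hr : φ.range = K := range_eq_of_mapsTo hφ hφK
  have e1 : (thompsonSubgroupAOf (⊤ : Subgroup K)).map K.subtype = thompsonSubgroupAOf K := by
    rw [Cfsg.Agent.PLocal.ThompsonJA.map_thompsonSubgroupAOf K.subtype K.subtype_injective]
    congr 1
    rw [← MonoidHom.range_eq_map, Subgroup.range_subtype]
  have e2 : (thompsonSubgroupAOf (⊤ : Subgroup K)).map φ = thompsonSubgroupAOf K := by
    rw [Cfsg.Agent.PLocal.ThompsonJA.map_thompsonSubgroupAOf φ (F.injective_of_mem hφ)]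
    congr 1
    rw [← MonoidHom.range_eq_map, hr]
  rw [← e2]
  rw [← e1] at hx
  obtain ⟨y, hy, rfl⟩ := hx
  exact ⟨y, hy, rfl⟩

/-- `Z(K) ≤ J(K)` inside an arbitrary group. -/
theorem le_thompson {K T : Subgroup Ω} [Finite K] (hTK : T ≤ K)
    (hTc : T ≤ Subgroup.centralizer (K : Set Ω)) : T ≤ thompsonSubgroupAOf K := by
  have e1 : (thompsonSubgroupAOf (⊤ : Subgroup K)).map K.subtype = thompsonSubgroupAOf K := by
    rw [Cfsg.Agent.PLocal.ThompsonJA.map_thompsonSubgroupAOf K.subtype K.subtype_injective]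
    congr 1
    rw [← MonoidHom.range_eq_map, Subgroup.range_subtype]
  intro t ht
  rw [← e1]
  refine ⟨⟨t, hTK ht⟩, ?_, rfl⟩
  refine Cfsg.Agent.PLocal.ThompsonJA.centerThompsonAOf_le_thompsonSubgroupAOf _
    (Cfsg.Agent.PLocal.ThompsonJA.inf_centralizer_le_centerThompsonAOf (⊤ : Subgroup K) ⟨Subgroup.mem_top _, ?_⟩)
  refine Subgroup.mem_centralizer_iff.2 (fun y _ => ?_)
  exact Subtype.ext (Subgroup.mem_centralizer_iff.1 (hTc ht) y y.2)

/-- Transport of `Fixes` along an isomorphism of the system normalizing `T`. -/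
theorem not_fixes_transport {F : FusionSystem S} {T H H' : Subgroup Ω} [Finite T] (hTH : T ≤ H)
    {ψ : H →* Ω} (hψ : ψ ∈ F.Hom H) (hr : ψ.range = H')
    (hψT : ∀ (x : Ω) (hx : x ∈ T), ψ ⟨x, hTH hx⟩ ∈ T) :
    T ≤ H' ∧ (¬ Fixes F T H → ¬ Fixes F T H') := by
  have hpre : ∀ z ∈ T, ∃ (y : Ω) (hy : y ∈ T), ψ ⟨y, hTH hy⟩ = z := fun z hz =>
    exists_preimage_of_mapsTo (F.injective_of_mem hψ) hTH hψT hz
  refine ⟨fun t ht => ?_, fun hH hH' => hH ?_⟩
  · obtain ⟨y, hy, h1⟩ := hpre t ht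
    rw [← hr]
    exact ⟨_, h1⟩
  · intro φ hφ hφH x hx hxT
    obtain ⟨ψi, hψi, hψir, hψi1, hψi2⟩ := exists_inv hψ hr
    have hψm : ∀ x : H, ψ x ∈ H' := fun x => by rw [← hr]; exact ⟨x, rfl⟩
    have hψim : ∀ y : H', ψi y ∈ H := fun y => by rw [← hψir]; exact ⟨y, rfl⟩
    obtain ⟨φ₁, hφ₁, hφ₁e⟩ := exists_comp hψi hφ hψim
    have hφ₁m : ∀ y : H', φ₁ y ∈ H := fun y => by rw [hφ₁e]; exact hφH _
    obtain ⟨φ₂, hφ₂, hφ₂e⟩ := exists_comp hφ₁ hψ hφ₁m
    have h1 := hH' φ₂ hφ₂ (fun y => by rw [hφ₂e]; exact hψm _) (ψ ⟨x, hx⟩) (hψm _) (hψT x hxT)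
    rw [hφ₂e] at h1
    have h2 : φ₁ ⟨ψ ⟨x, hx⟩, hψm _⟩ = φ ⟨x, hx⟩ := by
      rw [hφ₁e]
      congr 1
      exact Subtype.ext (hψi1 ⟨x, hx⟩ _)
    have h3 : (⟨φ₁ ⟨ψ ⟨x, hx⟩, hψm _⟩, hφ₁m _⟩ : H) = ⟨φ ⟨x, hx⟩, hφH _⟩ := Subtype.ext h2
    rw [h3] at h1
    obtain ⟨y, hy, h4⟩ := hpre _ h1
    have h5 := congrArg Subtype.val (F.injective_of_mem hψ h4)
    change y = φ ⟨x, hx⟩ at h5
    rw [← h5]
    exact hy

/-- Extension to `H C_S(H)`. -/
theorem not_fixes_sup {F : FusionSystem S} {T H : Subgroup Ω}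
    (hHr : F.IsReceptive H) (h : ¬ Fixes F T H) : ¬ Fixes F T (H ⊔ centralizerIn S H) := by
  intro hX
  apply h
  intro φ hφ hφH x hx hxT
  have hHS := hHr.1
  have hfH : Finite H := finite_of_le hHS
  have hr : φ.range = H := range_eq_of_mapsTo hφ hφH
  obtain ⟨ψ₀, hψ₀, hψ₀e⟩ := hHr.2 H φ hφ hr
  have hXE : H ⊔ centralizerIn S H ≤ extender S H φ :=
    sup_le (le_extender hHS (fun x => hom_apply_mem hφ x)) (centralizerIn_le_extender S H φ)
  have hψ := restrict_mem hψ₀ hXE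
  set ψ : (H ⊔ centralizerIn S H : Subgroup Ω) →* Ω := ψ₀.comp (Subgroup.inclusion hXE) with hψdef
  have hψe : ∀ (x : Ω) (hx : x ∈ H) (hx' : x ∈ H ⊔ centralizerIn S H), ψ ⟨x, hx'⟩ = φ ⟨x, hx⟩ :=
    fun x hx _ => hψ₀e x hx _
  have hψX : ∀ y : (H ⊔ centralizerIn S H : Subgroup Ω), ψ y ∈ H ⊔ centralizerIn S H := by
    apply Cfsg.Agent.H759.hom_sup_mem
    · intro y hy hy'
      rw [hψe y hy hy']
      exact (le_sup_left : H ≤ H ⊔ centralizerIn S H) (hφH _)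
    · intro y hy hy'
      exact (le_sup_right : _ ≤ H ⊔ centralizerIn S H)
        (apply_mem_centralizerIn hψ le_sup_left hr (fun x hx => hψe x hx _) ⟨y, hy'⟩ hy.2)
  have := hX ψ hψ hψX x ((le_sup_left : H ≤ H ⊔ centralizerIn S H) hx) hxT
  rwa [hψe x hx] at this

/-- **The fusion step.** -/
theorem exists_moving (hS : IsPGroup p S) {F : FusionSystem S} (hF : F.IsSaturated p)
    {T : Subgroup Ω} (hTS : T ≤ S) (hTc : T ≤ Subgroup.centralizer (S : Set Ω))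
    (hJ : Fixes F T (thompsonSubgroupAOf S)) (hw : ¬ F.WeaklyClosed T) :
    ∃ H : Subgroup Ω, T ≤ H ∧ F.IsFullyNormalized H ∧ F.IsCentric H ∧ ¬ Fixes F T H ∧
      ∀ K : Subgroup Ω, T ≤ K → K ≤ S → ¬ Fixes F T K →
        Nat.card (normalizerIn S K) ≤ Nat.card (normalizerIn S H) := by
  have hfT : Finite T := finite_of_le hTS
  have hex : ∃ H : Subgroup Ω, T ≤ H ∧ H ≤ S ∧ ¬ Fixes F T H := by
    by_contra hno
    push Not at hno
    exact hw (weaklyClosed_of_nExt hTS (fun φ hφ => nExt_of_fixes hS hF hTS hTc 0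
      (fun H h1 h2 _ => hno H h1 h2) T φ hφ (Nat.zero_le _)))
  set A : Set ℕ := {n | ∃ H : Subgroup Ω, T ≤ H ∧ H ≤ S ∧ ¬ Fixes F T H ∧
    Nat.card (normalizerIn S H) = n} with hA
  have hAne : A.Nonempty := by
    obtain ⟨H, h1, h2, h3⟩ := hex
    exact ⟨_, H, h1, h2, h3, rfl⟩
  have hAb : BddAbove A := by
    refine ⟨Nat.card S, ?_⟩
    rintro n ⟨H, -, -, -, rfl⟩
    exact Subgroup.card_le_of_le inf_le_left
  set n₀ := sSup A with hn₀
  have hmax : ∀ K : Subgroup Ω, T ≤ K → K ≤ S → ¬ Fixes F T K →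
      Nat.card (normalizerIn S K) ≤ n₀ := fun K h1 h2 h3 => le_csSup hAb ⟨K, h1, h2, h3, rfl⟩
  obtain ⟨H₀, hTH₀, hH₀S, hH₀, hcard₀⟩ : n₀ ∈ A := Nat.sSup_mem hAne hAb
  have claimA : ∀ K : Subgroup Ω, T ≤ K → K ≤ S → n₀ ≤ Nat.card K → Fixes F T K := by
    intro K hTK hKS hcK
    by_cases hKeq : K = S
    · rw [hKeq]
      exact Fixes.of_le (le_thompson hTS hTc) (Cfsg.Agent.PLocal.ThompsonJA.thompsonSubgroupAOf_le S)
        (fun φ hφ hφK x hx => apply_mem_thompson hφ hφK x hx) hJ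
    · by_contra hK
      have h1 := hmax K hTK hKS hK
      have h2 := card_lt_card_normalizerIn hS hKS hKeq
      omega
  have hN := nExt_of_fixes hS hF hTS hTc n₀ claimA
  -- a fully normalized conjugate
  have step : ∀ H : Subgroup Ω, T ≤ H → H ≤ S → ¬ Fixes F T H → Nat.card (normalizerIn S H) = n₀ →
      ∃ H', F.IsConj H H' ∧ F.IsFullyNormalized H' ∧ T ≤ H' ∧ ¬ Fixes F T H' ∧
        Nat.card (normalizerIn S H') = n₀ := by
    intro H hTH hHS hH hc
    obtain ⟨H', hconj, hH'⟩ := exists_isFullyNormalized hS hF hHS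
    have hconj' := hconj
    obtain ⟨φ, hφ, hr⟩ := hconj
    obtain ⟨β, hβ, ψ, hψ, hψe, hψN⟩ := exists_extension_normalizer hS hF hφ hr hH'
    have hHN : H ≤ normalizerIn S H := le_normalizerIn hHS
    obtain ⟨ψ', hψ', h1, h2⟩ := hN _ ψ hψ hc.ge
    have hψT : ∀ (x : Ω) (hx : x ∈ T), ψ ⟨x, hHN (hTH hx)⟩ ∈ T := by
      intro x hx
      have h3 := h2 x hx ((le_sup_right : T ≤ _ ⊔ T) hx)
      rwa [h1 x (hHN (hTH hx))] at h3
    have hφm : ∀ x : H, φ x ∈ H' := fun x => by rw [← hr]; exact ⟨x, rfl⟩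
    have hψ₀ := restrict_mem hψ hHN
    have hψ₀r : (ψ.comp (Subgroup.inclusion hHN)).range = H' := by
      have hfH' : Finite H' := finite_of_le hH'.1
      refine Subgroup.eq_of_le_of_card_ge ?_ ?_
      · rintro _ ⟨x, rfl⟩
        change ψ ⟨x, hHN x.2⟩ ∈ H'
        rw [hψe x (hφm x)]
        exact (β _).2
      · rw [← isConj_card_eq hconj', ← isConj_card_eq (isConj_range hψ₀)]
    obtain ⟨h3, h4⟩ := not_fixes_transport hTH hψ₀ hψ₀r hψT
    refine ⟨H', hconj', hH', h3, h4 hH, le_antisymm (hmax H' h3 hH'.1 (h4 hH)) ?_⟩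
    rw [← hc]
    exact hH'.2 H (isConj_symm hconj')
  obtain ⟨H₁, -, hH₁n, hTH₁, hH₁, hc₁⟩ := step H₀ hTH₀ hH₀S hH₀ hcard₀
  have hX := not_fixes_sup (isReceptive_of_isFullyNormalized hS hF hH₁n) hH₁
  have hXc : F.IsCentric (H₁ ⊔ centralizerIn S H₁) :=
    isCentric_sup_centralizerIn (isFullyCentralized_of_isFullyNormalized hS hF hH₁n)
  have hNX : normalizerIn S H₁ ≤ normalizerIn S (H₁ ⊔ centralizerIn S H₁) := by
    intro g hg
    refine ⟨hg.1, ?_⟩
    have h1 := Subgroup.mem_normalizer_iff.1 hg.2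
    have hfX : Finite (H₁ ⊔ centralizerIn S H₁ : Subgroup Ω) := finite_of_le hXc.1
    refine Subgroup.mem_normalizer_iff_map_conj_eq.2 ?_
    refine Subgroup.eq_of_le_of_card_ge ?_ ?_
    · rw [Subgroup.map_sup]
      refine sup_le_sup ?_ ?_
      · rintro _ ⟨x, hx, rfl⟩
        exact (h1 x).1 hx
      · rintro _ ⟨x, hx, rfl⟩
        refine ⟨S.mul_mem (S.mul_mem hg.1 hx.1) (S.inv_mem hg.1),
          Subgroup.mem_centralizer_iff.2 (fun h hh => ?_)⟩
        have h2 : g⁻¹ * h * g ∈ H₁ := by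
          rw [h1]
          have : g * (g⁻¹ * h * g) * g⁻¹ = h := by group
          rw [this]
          exact hh
        have h3 := Subgroup.mem_centralizer_iff.1 hx.2 _ h2
        show h * (g * x * g⁻¹) = g * x * g⁻¹ * h
        calc h * (g * x * g⁻¹) = g * (g⁻¹ * h * g * x) * g⁻¹ := by group
          _ = g * (x * (g⁻¹ * h * g)) * g⁻¹ := by rw [h3]
          _ = g * x * g⁻¹ * h := by group
    · exact (Cfsg.Agent.PLocal.ThompsonJA.card_map_of_injective _ (MulAut.conj g).injective _).ge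
  have hfN : Finite (normalizerIn S (H₁ ⊔ centralizerIn S H₁)) := finite_of_le inf_le_left
  have hcX : Nat.card (normalizerIn S (H₁ ⊔ centralizerIn S H₁)) = n₀ :=
    le_antisymm (hmax _ (hTH₁.trans le_sup_left) hXc.1 hX)
      (hc₁.ge.trans (Subgroup.card_le_of_le hNX))
  obtain ⟨H₂, hconj, hH₂n, hTH₂, hH₂, hc₂⟩ := step _ (hTH₁.trans le_sup_left) hXc.1 hX hcX
  refine ⟨H₂, hTH₂, hH₂n, isCentric_of_isConj hXc hconj, hH₂, fun K h1 h2 h3 => ?_⟩
  rw [hc₂]
  exact hmax K h1 h2 h3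

end

end Cfsg.Agent.H789.FusTorus
end

-- part: H789/FusTorusB
section
/-!
# Central subgroups of `S` which are not weakly closed: the torus (helper789)
-/

set_option autoImplicit false

namespace Cfsg.Agent.H789.FusTorus

open Cfsg Cfsg.FusionSystem Cfsg.Agent.H802 Cfsg.Agent.H771

universe u v

variable {Ω : Type u} [Group Ω] {S : Subgroup Ω}

/-- The data in the model. -/
theorem torus_of_model {p : ℕ} [Fact p.Prime] (hp : p ≠ 2) {N : Subgroup Ω} [Finite N]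
    {E : FusionSystem N} {G : Type v} [Group G] [Finite G] {ι : ↥N →* G}
    (hreal : E.IsRealizedBy ι) (hSyl : ∃ P : Sylow p G, (P : Subgroup G) = ι.range)
    {T H : Subgroup Ω} (hTH : T ≤ H) (hHN : H ≤ N) (hTc : T ≤ Subgroup.centralizer (N : Set Ω))
    (hH : ((H.subgroupOf N).map ι).Normal) (hHp : IsPGroup p H)
    (hJ : Fixes E T (thompsonSubgroupAOf N)) (hT : ¬ Fixes E T H) :
    ∃ X : Subgroup (MulAut ↥T), X ≤ E.autGroup T ∧ X ≠ ⊥ ∧ IsCyclic ↥X ∧
      (Nat.card ↥X).Coprime p ∧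
      ∀ a b : ↥T, a ∈ Subgroup.closure {y : ↥T | ∃ ψ ∈ X, ∃ t : ↥T, y = ψ t * t⁻¹} →
        b ∈ Subgroup.closure {y : ↥T | ∃ ψ ∈ X, ∃ t : ↥T, y = ψ t * t⁻¹} →
        a ≠ 1 → b ≠ 1 → ∃ ψ ∈ X, ψ a = b := by
  have hTN : T ≤ N := hTH.trans hHN
  have hinj := hreal.1
  have hfT : Finite T := finite_of_le hTN
  -- the isomorphism `T ≃ ι(T)`
  set T' : Subgroup G := (T.subgroupOf N).map ι with hT'
  let e₀ : ↥T →* G := ι.comp (Subgroup.inclusion hTN)
  have he₀i : Function.Injective e₀ := hinj.comp (Subgroup.inclusion_injective hTN)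
  have he₀m : ∀ x : T, e₀ x ∈ T' := fun x => ⟨⟨x, hTN x.2⟩, x.2, rfl⟩
  let e : ↥T ≃* ↥T' := MulEquiv.ofBijective (e₀.codRestrict T' he₀m) (by
    constructor
    · intro x y hxy
      exact he₀i (congrArg Subtype.val hxy)
    · rintro ⟨_, y, hy, rfl⟩
      exact ⟨⟨y, hy⟩, rfl⟩)
  have he : ∀ x : T, ((e x : T') : G) = ι ⟨x, hTN x.2⟩ := fun x => rfl
  -- conjugation normalizing `T'`
  have hnorm : ∀ g : G, (∀ (t : Ω) (ht : t ∈ T), g * ι ⟨t, hTN ht⟩ * g⁻¹ ∈ T') →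
      g ∈ Subgroup.normalizer (T' : Set G) := by
    intro g hg
    refine Subgroup.mem_normalizer_iff_map_conj_eq.2 (Subgroup.eq_of_le_of_card_ge ?_ ?_)
    · rintro _ ⟨_, ⟨y, hy, rfl⟩, rfl⟩
      exact hg y hy
    · exact (Cfsg.Agent.PLocal.ThompsonJA.card_map_of_injective _ (MulAut.conj g).injective _).ge
  have hmemT : ∀ (x : N), ι x ∈ T' → (x : Ω) ∈ T := by
    rintro x ⟨y, hy, hyx⟩
    rw [← hinj hyx]
    exact hy
  -- Sylow
  obtain ⟨P, hP⟩ := hSyl
  have hS : SylIn p ι.range (⊤ : Subgroup G) := hP ▸ sylIn_top_of_sylow P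
  -- centrality
  have hTc' : ι.range ≤ Subgroup.centralizer (T' : Set G) := by
    rintro _ ⟨x, rfl⟩
    refine Subgroup.mem_centralizer_iff.2 ?_
    rintro _ ⟨y, hy, rfl⟩
    have h1 : x * y = y * x := Subtype.ext (Subgroup.mem_centralizer_iff.1 (hTc hy) x x.2)
    rw [← map_mul, ← map_mul, h1]
  have hQp : IsPGroup p ((H.subgroupOf N).map ι) :=
    (hHp.comap_of_injective N.subtype N.subtype_injective).map ι
  have hTQ : T' ≤ (H.subgroupOf N).map ι := Subgroup.map_mono (fun x hx => hTH hx)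
  -- the Thompson subgroup
  have e1 : (thompsonSubgroupAOf (⊤ : Subgroup N)).map N.subtype = thompsonSubgroupAOf N := by
    rw [Cfsg.Agent.PLocal.ThompsonJA.map_thompsonSubgroupAOf N.subtype N.subtype_injective]
    congr 1
    rw [← MonoidHom.range_eq_map, Subgroup.range_subtype]
  have e2 : (thompsonSubgroupAOf (⊤ : Subgroup N)).map ι = thompsonSubgroupAOf ι.range := by
    rw [Cfsg.Agent.PLocal.ThompsonJA.map_thompsonSubgroupAOf ι hinj]
    congr 1
    rw [← MonoidHom.range_eq_map]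
  have hJN : thompsonSubgroupAOf N ≤ N := Cfsg.Agent.PLocal.ThompsonJA.thompsonSubgroupAOf_le N
  have hJmem : ∀ x : N, (x : Ω) ∈ thompsonSubgroupAOf N → ι x ∈ thompsonSubgroupAOf ι.range := by
    intro x hx
    rw [← e1] at hx
    obtain ⟨y, hy, hyx⟩ := hx
    rw [← e2]
    exact ⟨y, hy, by rw [show y = x from Subtype.ext hyx]⟩
  have hJmem' : ∀ z ∈ thompsonSubgroupAOf ι.range, ∃ x : N, (x : Ω) ∈ thompsonSubgroupAOf N ∧
      ι x = z := by
    intro z hz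
    rw [← e2] at hz
    obtain ⟨y, hy, rfl⟩ := hz
    refine ⟨y, ?_, rfl⟩
    rw [← e1]
    exact ⟨y, hy, rfl⟩
  have hTJ : T ≤ thompsonSubgroupAOf N := le_thompson hTN hTc
  have hJ' : Subgroup.normalizer (thompsonSubgroupAOf ι.range : Set G) ≤
      Subgroup.normalizer (T' : Set G) := by
    intro g hg
    rw [Subgroup.mem_normalizer_iff] at hg
    apply hnorm
    intro t ht
    have hall : ∀ x : thompsonSubgroupAOf N, ∃ n : N, ι n = g * ι ⟨x, hJN x.2⟩ * g⁻¹ := by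
      intro x
      obtain ⟨n, -, hn⟩ := hJmem' _ ((hg _).1 (hJmem ⟨x, hJN x.2⟩ x.2))
      exact ⟨n, hn⟩
    obtain ⟨f, ⟨φ, hφ, hφf⟩, hf⟩ := Cfsg.Agent.H753.exists_mp_of_conj hreal hJN g hall
    have hφm : ∀ x : thompsonSubgroupAOf N, φ x ∈ thompsonSubgroupAOf N := by
      intro x
      obtain ⟨hfx, h1⟩ := hf x x.2
      obtain ⟨n, hn, h2⟩ := hJmem' _ ((hg _).1 (hJmem ⟨x, hJN x.2⟩ x.2))
      have h3 : n = ⟨f x, hfx⟩ := hinj (h2.trans h1.symm)
      rw [hφf x x.2]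
      rw [h3] at hn
      exact hn
    have h4 := hJ φ hφ hφm t (hTJ ht) ht
    rw [hφf t (hTJ ht)] at h4
    obtain ⟨hft, h5⟩ := hf t (hTJ ht)
    rw [← h5]
    exact ⟨⟨f t, hft⟩, h4, rfl⟩
  have hTtop : Subgroup.normalizer (T' : Set G) ≠ ⊤ := by
    intro htop
    apply hT
    intro φ hφ hφH x hx hxT
    obtain ⟨g, hg⟩ := (hreal.2 H hHN φ (fun y => hHN (hφH y))).1 hφ
    have h1 : g ∈ Subgroup.normalizer (T' : Set G) := by rw [htop]; exact Subgroup.mem_top _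
    rw [Subgroup.mem_normalizer_iff] at h1
    have h2 := (h1 (ι ⟨x, hHN hx⟩)).1 ⟨⟨x, hHN hx⟩, hxT, rfl⟩
    rw [← hg ⟨x, hx⟩] at h2
    exact hmemT _ h2
  obtain ⟨g, χ, hχg, hχ1, hχp, hχt⟩ := Cfsg.Agent.H789.LocalTorus.exists_torus hp hS hTc' hH hQp
    hTQ hJ' hTtop
  -- transport
  set c : MulAut ↥T' ≃* MulAut ↥T := MulAut.congr e.symm with hc
  have hcapp : ∀ (ψ : MulAut ↥T') (x : T), e (c ψ x) = ψ (e x) := by
    intro ψ x
    show e (e.symm (ψ (e.symm.symm x))) = ψ (e x)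
    rw [MulEquiv.apply_symm_apply, MulEquiv.symm_symm]
  have hmem : c χ ∈ E.autGroup T := by
    rw [mem_autGroup_iff E hTN]
    rw [hreal.2 T hTN _ (fun x => hTN ((c χ x).2))]
    refine ⟨g, fun x => ?_⟩
    have h1 := congrArg Subtype.val (hcapp χ x)
    rw [hχg] at h1
    exact h1
  have hclos : ∀ a : T, a ∈ Subgroup.closure {y : ↥T | ∃ ψ ∈ Subgroup.zpowers (c χ), ∃ t : ↥T,
      y = ψ t * t⁻¹} → e a ∈ Subgroup.closure {y : ↥T' | ∃ ψ ∈ Subgroup.zpowers χ, ∃ t : ↥T',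
      y = ψ t * t⁻¹} := by
    intro a ha
    have hle : Subgroup.closure {y : ↥T | ∃ ψ ∈ Subgroup.zpowers (c χ), ∃ t : ↥T,
      y = ψ t * t⁻¹} ≤ (Subgroup.closure {y : ↥T' | ∃ ψ ∈ Subgroup.zpowers χ, ∃ t : ↥T',
      y = ψ t * t⁻¹}).comap e.toMonoidHom := by
      rw [Subgroup.closure_le]
      rintro _ ⟨ψ, ⟨k, rfl⟩, t, rfl⟩
      apply Subgroup.subset_closure
      refine ⟨χ ^ k, ⟨k, rfl⟩, e t, ?_⟩
      show e ((c χ ^ k) t * t⁻¹) = _
      rw [map_mul, map_inv, ← map_zpow, hcapp]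
    exact hle ha
  refine ⟨Subgroup.zpowers (c χ), ?_, ?_, inferInstance, ?_, ?_⟩
  · rw [Subgroup.zpowers_le]
    exact hmem
  · intro h
    rw [Subgroup.zpowers_eq_bot] at h
    exact hχ1 (c.injective (h.trans (map_one c).symm))
  · rw [Nat.card_zpowers] at hχp ⊢
    rwa [MulEquiv.orderOf_eq]
  · intro a b ha hb ha1 hb1
    obtain ⟨ψ, ⟨k, rfl⟩, h1⟩ := hχt (e a) (hclos a ha) (e b) (hclos b hb)
      (fun h => ha1 (e.injective (h.trans (map_one e).symm)))
      (fun h => hb1 (e.injective (h.trans (map_one e).symm)))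
    refine ⟨(c χ) ^ k, ⟨k, rfl⟩, e.injective ?_⟩
    rw [← map_zpow, hcapp]
    exact h1

/-- **The main theorem.** -/
theorem exists_torus {p : ℕ} [Fact p.Prime] [Finite S] (hS : IsPGroup p S) {F : FusionSystem S}
    (hF : F.IsSaturated p) (hp : p ≠ 2) {T : Subgroup Ω} (hTS : T ≤ S)
    (hTc : T ≤ Subgroup.centralizer (S : Set Ω)) (hJ : Fixes F T (thompsonSubgroupAOf S))
    (hw : ¬ F.WeaklyClosed T) :
    ∃ X : Subgroup (MulAut ↥T), X ≤ F.autGroup T ∧ X ≠ ⊥ ∧ IsCyclic ↥X ∧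
      (Nat.card ↥X).Coprime p ∧
      ∀ a b : ↥T, a ∈ Subgroup.closure {y : ↥T | ∃ ψ ∈ X, ∃ t : ↥T, y = ψ t * t⁻¹} →
        b ∈ Subgroup.closure {y : ↥T | ∃ ψ ∈ X, ∃ t : ↥T, y = ψ t * t⁻¹} →
        a ≠ 1 → b ≠ 1 → ∃ ψ ∈ X, ψ a = b := by
  obtain ⟨H, hTH, hHn, hHc, hH, hmax⟩ := exists_moving hS hF hTS hTc hJ hw
  have hHS := hHn.1
  set N := normalizerIn S H with hN
  have hNS : N ≤ S := inf_le_left
  have hfN : Finite N := finite_of_le hNS
  have hHN : H ≤ N := Cfsg.Agent.H802.le_normalizerIn hHS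
  have hE := Cfsg.Agent.H781.isNormalizerSystem_normSys F H hHS
  set E := Cfsg.Agent.H781.normSys F H hHS with hEdef
  have hEs : E.IsSaturated p := normalizerSystem_isSaturated hS hF hHn hE
  have hEn : E.IsNormal H := Cfsg.Agent.H753.isNormal_normalizerSystem hHS hE
  have hEc : E.IsCentric H := Cfsg.Agent.H753.isCentric_normalizerSystem hE hHc
  have hNp : IsPGroup p N := hS.to_le hNS
  obtain ⟨G, _, ι, hM, hQn, -⟩ := exists_model hNp hEs hEn hEc
  obtain ⟨hfG, hreal, hSyl, -⟩ := hM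
  have hEF : ∀ (P : Subgroup Ω) (φ : P →* Ω), φ ∈ E.Hom P → φ ∈ F.Hom P := by
    intro P φ hφ
    rw [hE] at hφ
    exact hφ.1
  have hTN : T ≤ N := hTH.trans hHN
  have hTcN : T ≤ Subgroup.centralizer (N : Set Ω) := hTc.trans (Subgroup.centralizer_le hNS)
  have hJ₀ : Fixes F T (thompsonSubgroupAOf N) := by
    by_cases hNeq : N = S
    · rw [hNeq]
      exact hJ
    · by_contra hno
      have hJN : thompsonSubgroupAOf N ≤ N :=
        Cfsg.Agent.PLocal.ThompsonJA.thompsonSubgroupAOf_le N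
      have h1 := hmax _ (le_thompson hTN hTcN) (hJN.trans hNS) hno
      have h2 := card_lt_card_normalizerIn hS hNS hNeq
      have h3 : normalizerIn S N ≤ normalizerIn S (thompsonSubgroupAOf N) :=
        inf_le_inf_left _
          (Cfsg.Agent.PLocal.ThompsonJA.normalizer_le_normalizer_thompsonSubgroupAOf N)
      have hf3 : Finite (normalizerIn S (thompsonSubgroupAOf N)) := finite_of_le inf_le_left
      have h4 := Subgroup.card_le_of_le h3
      omega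
  have hJE : Fixes E T (thompsonSubgroupAOf N) :=
    fun φ hφ hφm x hx hxT => hJ₀ φ (hEF _ φ hφ) hφm x hx hxT
  have hHE : ¬ Fixes E T H := by
    intro h
    apply hH
    intro φ hφ hφm x hx hxT
    refine h φ ?_ hφm x hx hxT
    rw [hE]
    have hfH : Finite H := finite_of_le hHS
    rw [mem_normalizerHom_iff]
    have hle : H ⊔ H ≤ H := sup_le le_rfl le_rfl
    exact ⟨hHN, fun x => hHN (hφm x), _, restrict_mem hφ hle, fun x hx hx' => rfl,
      fun y hy hy' => hφm ⟨y, hy⟩⟩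
  obtain ⟨X, hX1, hX2, hX3, hX4, hX5⟩ := torus_of_model hp hreal hSyl hTH hHN hTcN hQn
    (hS.to_le hHS) hJE hHE
  refine ⟨X, hX1.trans ?_, hX2, hX3, hX4, hX5⟩
  intro α hα
  rw [mem_autGroup_iff E hTN] at hα
  rw [mem_autGroup_iff F hTS]
  exact hEF _ _ hα

/-- The hypothesis on the normalizer systems. -/
theorem fixes_of_isSubsystemOf [Finite S] {F : FusionSystem S} {T : Subgroup Ω} (hTS : T ≤ S)
    (hTc : T ≤ Subgroup.centralizer (S : Set Ω))
    (hJT : ∀ NJ : FusionSystem (normalizerIn S (thompsonSubgroupAOf S)),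
      F.IsNormalizerSystem (thompsonSubgroupAOf S) NJ → ∀ NT : FusionSystem (normalizerIn S T),
        F.IsNormalizerSystem T NT → NJ.IsSubsystemOf NT) : Fixes F T (thompsonSubgroupAOf S) := by
  set J := thompsonSubgroupAOf S with hJ
  have hJS : J ≤ S := Cfsg.Agent.PLocal.ThompsonJA.thompsonSubgroupAOf_le S
  have hfJ : Finite J := finite_of_le hJS
  have hfT : Finite T := finite_of_le hTS
  intro φ hφ hφm x hx hxT
  have h1 := hJT _ (Cfsg.Agent.H781.isNormalizerSystem_normSys F J hJS) _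
    (Cfsg.Agent.H781.isNormalizerSystem_normSys F T hTS) J
  have hle : J ⊔ J ≤ J := sup_le le_rfl le_rfl
  have hJN : J ≤ normalizerIn S J := Cfsg.Agent.H802.le_normalizerIn hJS
  have h2 : φ ∈ F.normalizerHom J J := by
    rw [mem_normalizerHom_iff]
    exact ⟨hJN, fun x => hJN (hφm x), _, restrict_mem hφ hle, fun x hx hx' => rfl,
      fun y hy hy' => hφm ⟨y, hy⟩⟩
  have h3 : φ ∈ F.normalizerHom T J := by
    rw [← Cfsg.Agent.H781.isNormalizerSystem_normSys F T hTS]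
    apply h1
    rw [Cfsg.Agent.H781.isNormalizerSystem_normSys F J hJS]
    exact h2
  rw [mem_normalizerHom_iff] at h3
  obtain ⟨-, -, ψ, hψ, h4, h5⟩ := h3
  have h6 := h5 x hxT ((le_sup_right : T ≤ J ⊔ T) hxT)
  rwa [h4 x hx] at h6

end Cfsg.Agent.H789.FusTorus
end
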